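import Cfsg.Agent.H38.ClassCoeff
import Cfsg.Agent.H26.CharBasic
import Cfsg.Agent.H26.CharInvolutions
import Cfsg.Agent.H25.CharValues

/-!
A character bound for writing an element as a product of two elements of a class in a perfect group all of whose
non-trivial irreducible characters have large degree.
-/

set_option autoImplicit false

open scoped ComplexConjugate

namespace Cfsg.Agent.H19.ReeSq

variable {G : Type*} [Group G] [Fintype G]

theorem sum_norm_sq_eq (g : G) :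
    ∑ χ : Cfsg.IrrCharacter G, ‖χ.1 g‖ ^ 2 = (Nat.card (Subgroup.centralizer ({g} : Set G)) : ℝ) := by
  classical
  have h := H26.column_orthogonality g g
  have e : H26.classIndicator g g = 1 := by simp only [H26.classIndicator]; exact if_pos (IsConj.refl g)
  rw [e, mul_one] at h
  apply Complex.ofReal_injective
  push_cast
  rw [← h]
  exact Finset.sum_congr rfl fun χ _ => (Complex.mul_conj' _).symm

omit [Fintype G] in
/-- A linear character of a perfect group is trivial. -/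
theorem irr_eq_one_of_degree_one (hperf : commutator G = ⊤) {ρ : Representation ℂ G (Fin 1 → ℂ)} (g : G) :
    ρ.character g = 1 := by
  have htr : ∀ f : (Fin 1 → ℂ) →ₗ[ℂ] (Fin 1 → ℂ), LinearMap.trace ℂ _ f = LinearMap.det f := fun f => by
    rw [LinearMap.trace_eq_matrix_trace ℂ (Pi.basisFun ℂ (Fin 1)), ← LinearMap.det_toMatrix (Pi.basisFun ℂ (Fin 1)),
      Matrix.trace_fin_one, Matrix.det_fin_one]
  let f : G →* ℂ :=
    { toFun := fun g => LinearMap.det (ρ g)
      map_one' := by rw [map_one ρ, map_one]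
      map_mul' := fun g h => by rw [map_mul ρ, map_mul] }
  have hi : g ∈ commutator G := by rw [hperf]; exact Subgroup.mem_top g
  have h1 : LinearMap.det (ρ g) = 1 :=
    congrArg Units.val (MonoidHom.mem_ker.1 (Abelianization.commutator_subset_ker f.toHomUnits hi))
  rw [Representation.character, htr]
  exact h1

/-- The bound. -/
theorem exists_product_of_bound (hperf : commutator G = ⊤) {D A B : ℕ}
    (hdeg : ∀ (k : ℕ) (ρ : Representation ℂ G (Fin k → ℂ)), ρ.IsIrreducible → 2 ≤ k → D ≤ k)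
    (x g : G) (hA : Nat.card (Subgroup.centralizer ({x} : Set G)) ≤ A)
    (hB : Nat.card (Subgroup.centralizer ({g} : Set G)) ≤ B) (hD : (A - 1) ^ 2 * B < D ^ 2) :
    ∃ y y', IsConj x y ∧ IsConj x y' ∧ g = y * y' := by
  classical
  by_contra hno
  haveI : IsEmpty {p : G × G // IsConj x p.1 ∧ IsConj x p.2 ∧ p.1 * p.2 = g} :=
    ⟨fun p => hno ⟨p.1.1, p.1.2, p.2.1, p.2.2.1, p.2.2.2.symm⟩⟩
  have h := H38.class_coeff x x g
  rw [Nat.card_of_isEmpty, Nat.cast_zero] at h
  have hcls : (Nat.card {y : G // IsConj x y} : ℂ) ≠ 0 := by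
    haveI : Nonempty {y : G // IsConj x y} := ⟨⟨x, IsConj.refl x⟩⟩
    exact Nat.cast_ne_zero.2 Nat.card_pos.ne'
  have h0 : ∑ χ : Cfsg.IrrCharacter G, χ.1 x * χ.1 x * conj (χ.1 g) / χ.1 1 = 0 := by
    rcases mul_eq_zero.1 h.symm with h' | h'
    · simp [hcls, Nat.card_pos.ne'] at h'
    · exact h'
  rw [← Finset.add_sum_erase _ _ (Finset.mem_univ (H26.oneIrr G))] at h0
  simp only [H26.oneIrr_val, mul_one, map_one, div_one] at h0
  set R := Finset.univ.erase (H26.oneIrr G) with hR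
  have hone : (1 : ℝ) ≤ ∑ χ ∈ R, ‖χ.1 x * χ.1 x * conj (χ.1 g) / χ.1 1‖ := by
    refine le_trans ?_ (norm_sum_le _ _)
    rw [eq_neg_of_add_eq_zero_right h0, norm_neg, norm_one]
  set s := Real.sqrt (B : ℝ)
  have hDle : ∀ χ ∈ R, ((D : ℝ)) ≤ ‖χ.1 1‖ := by
    intro χ hχ
    obtain ⟨n, ρ, hρ, e⟩ := χ.2
    have h1 : χ.1 1 = (n : ℂ) := by rw [← e, ρ.char_one, Module.finrank_fin_fun]
    rw [h1, Complex.norm_natCast]
    have hn : n ≠ 0 := fun h => H26.irr_one_ne_zero χ (by rw [h1, h, Nat.cast_zero])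
    by_cases hn1 : n = 1
    · subst hn1
      refine absurd (Subtype.ext (funext fun y => ?_)) (Finset.ne_of_mem_erase hχ)
      rw [H26.oneIrr_val, ← e]
      exact irr_eq_one_of_degree_one hperf y
    · exact_mod_cast hdeg n ρ hρ (by omega)
  have hgle : ∀ χ : Cfsg.IrrCharacter G, ‖χ.1 g‖ ≤ s := by
    intro χ
    refine Real.le_sqrt_of_sq_le ?_
    refine le_trans ?_ (show ((Nat.card (Subgroup.centralizer ({g} : Set G)) : ℝ)) ≤ B by exact_mod_cast hB)
    rw [← sum_norm_sq_eq g]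
    exact Finset.single_le_sum (f := fun χ : Cfsg.IrrCharacter G => ‖χ.1 g‖ ^ 2) (fun _ _ => by positivity)
      (Finset.mem_univ χ)
  have hD0 : (0 : ℝ) < D := by
    have : 0 < D := Nat.pos_of_ne_zero fun h => by rw [h] at hD; simp at hD
    exact_mod_cast this
  have hsum : ∑ χ ∈ R, ‖χ.1 x‖ ^ 2 ≤ ((A - 1 : ℕ) : ℝ) := by
    have h1 := sum_norm_sq_eq x
    rw [← Finset.add_sum_erase _ _ (Finset.mem_univ (H26.oneIrr G))] at h1
    simp only [H26.oneIrr_val, norm_one, one_pow] at h1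
    have hA1 : 1 ≤ A := le_trans (Nat.card_pos) hA
    have hA' : ((Nat.card (Subgroup.centralizer ({x} : Set G)) : ℝ)) ≤ A := by exact_mod_cast hA
    rw [Nat.cast_sub hA1, Nat.cast_one]
    linarith
  have hbound : ∑ χ ∈ R, ‖χ.1 x * χ.1 x * conj (χ.1 g) / χ.1 1‖ ≤ ((A - 1 : ℕ) : ℝ) * (s / D) := by
    refine le_trans (Finset.sum_le_sum (g := fun χ => ‖χ.1 x‖ ^ 2 * (s / D)) fun χ hχ => ?_) ?_
    · rw [norm_div, norm_mul, norm_mul, Complex.norm_conj, ← pow_two, mul_div_assoc]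
      refine mul_le_mul_of_nonneg_left ?_ (by positivity)
      exact div_le_div₀ (Real.sqrt_nonneg _) (hgle χ) hD0 (hDle χ hχ)
    · rw [← Finset.sum_mul]
      exact mul_le_mul_of_nonneg_right hsum (by positivity)
  have h2 : (D : ℝ) ≤ ((A - 1 : ℕ) : ℝ) * s := by
    have := hone.trans hbound
    rwa [← mul_div_assoc, le_div_iff₀ hD0, one_mul] at this
  have h3 : (D : ℝ) ^ 2 ≤ ((A - 1 : ℕ) : ℝ) ^ 2 * B := by
    refine (pow_le_pow_left₀ hD0.le h2 2).trans (le_of_eq ?_)
    rw [mul_pow, Real.sq_sqrt (Nat.cast_nonneg B)]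
  exact absurd (by exact_mod_cast h3 : D ^ 2 ≤ (A - 1) ^ 2 * B) (not_le.2 hD)

end Cfsg.Agent.H19.ReeSq
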