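import Cfsg.Agent.H19.ReeSq.Trace
import Cfsg.Agent.H47.Ree.Spectrum
import Cfsg.Agent.H26.CharOrtho

/-!
Every element of order above two and prime to three is conjugate to one of the `z₁ h n`, by counting classes.
-/

set_option autoImplicit false

open Cfsg.Lie Cfsg.Agent.H46

namespace Cfsg.Agent.H19.ReeSq

open Cfsg.Agent.H48.Ree (Gr)
open Cfsg.Agent.H47.Ree (cell nR tR qA qB)

/-- On a union of classes the centraliser orders add up to the group order times the number of classes. -/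
theorem sum_centralizer_card {G : Type*} [Group G] [Fintype G] [DecidableEq (ConjClasses G)] (S : Finset G)
    (hS : ∀ x ∈ S, ∀ y, IsConj x y → y ∈ S) :
    ∑ z ∈ S, Nat.card ↥(Subgroup.centralizer ({z} : Set G)) =
      (S.image ConjClasses.mk).card * Nat.card G := by
  classical
  rw [Finset.card_eq_sum_ones (S.image ConjClasses.mk), Finset.sum_mul, one_mul]
  rw [← Finset.sum_fiberwise_of_maps_to (s := S) (t := S.image ConjClasses.mk)
    (g := ConjClasses.mk) (fun x hx => Finset.mem_image_of_mem _ hx)]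
  refine Finset.sum_congr rfl fun C hC => ?_
  obtain ⟨x, hx, rfl⟩ := Finset.mem_image.1 hC
  have hset : S.filter (fun z => ConjClasses.mk z = ConjClasses.mk x) =
      Finset.univ.filter (fun z => ConjClasses.mk z = ConjClasses.mk x) := by
    ext z
    simp only [Finset.mem_filter, Finset.mem_univ, true_and, and_iff_right_iff_imp]
    exact fun hz => hS x hx z (ConjClasses.mk_eq_mk_iff_isConj.1 hz).symm
  rw [hset, ← H26.card_class_mul_card_centralizer x]
  rw [Finset.sum_congr rfl fun z hz => H26.card_centralizer_eq_of_isConj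
    (ConjClasses.mk_eq_mk_iff_isConj.1 (Finset.mem_filter.1 hz).2), Finset.sum_const, smul_eq_mul]

variable {K : Type*} [Field K] [Fintype K] {m : ℕ} (hK : Fintype.card K = 3 ^ (2 * m + 1))

/-- The elements of order above two and prime to three. -/
def IsReg (z : ↥(Gr K m)) : Prop := 2 < orderOf z ∧ ¬ 3 ∣ orderOf z

omit [Fintype K] in
theorem IsReg.of_conj {x y : ↥(Gr K m)} (h : IsReg x) (e : IsConj x y) : IsReg y := by
  obtain ⟨c, rfl⟩ := isConj_iff.1 e
  rw [IsReg, H47.Ree.orderOf_conj]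
  exact h

include hK in
theorem card_centralizer_qm1 {z : ↥(Gr K m)} (hd : orderOf z ∣ 3 ^ (2 * m + 1) - 1) (hlt : 2 < orderOf z) :
    Nat.card ↥(Subgroup.centralizer ({z} : Set ↥(Gr K m))) = 3 ^ (2 * m + 1) - 1 := by
  classical
  haveI : Fintype ↥(Gr K m) := Fintype.ofFinite _
  obtain ⟨p, hp, hp2, hpd⟩ := H47.Ree.exists_odd_prime_of_lt hK hlt
  obtain ⟨g, hg, -⟩ := (H47.Ree.mem_sweep_H hK z).2 ⟨hd, hlt⟩
  have hpow : (g * z * g⁻¹) ^ (orderOf z / p) ∈ (cell hK).H := pow_mem hg _
  have ho : orderOf ((g * z * g⁻¹) ^ (orderOf z / p)) = p := by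
    rw [conj_pow, H47.Ree.orderOf_conj, H47.Ree.exists_pow_prime z hpd]
  have hC := H47.Ree.centralizer_H hK hpow hp hp2 ho
  have e : Subgroup.centralizer ({g * z * g⁻¹} : Set ↥(Gr K m)) = (cell hK).H := by
    refine le_antisymm (fun c hc => ?_) fun c hc => Subgroup.mem_centralizer_singleton_iff.2
      (H47.Ree.comm_H hK c hc _ hg)
    rw [← hC]
    exact Subgroup.mem_centralizer_singleton_iff.2
      ((show Commute c (g * z * g⁻¹) from Subgroup.mem_centralizer_singleton_iff.1 hc).pow_right _)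
  rw [← H47.Ree.card_H (m := m) hK, ← e]
  exact H26.card_centralizer_eq_of_isConj (isConj_iff.2 ⟨g, rfl⟩)

include hK in
theorem card_centralizer_qp1 (hm : 1 ≤ m) {z : ↥(Gr K m)} (hd : orderOf z ∣ 3 ^ (2 * m + 1) + 1)
    (hlt : 2 < orderOf z) :
    Nat.card ↥(Subgroup.centralizer ({z} : Set ↥(Gr K m))) = 3 ^ (2 * m + 1) + 1 := by
  classical
  haveI : Fintype ↥(Gr K m) := Fintype.ofFinite _
  obtain ⟨A, hA, -, -, -, -, -, -, hcen, hall⟩ := H47.Ree.exists_torus_data hm hK
  obtain ⟨g, hg⟩ := hall z hd hlt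
  rw [← hA, ← hcen _ hg (H47.Ree.sq_ne_of_two_lt (by rw [H47.Ree.orderOf_conj]; exact hlt))]
  exact H26.card_centralizer_eq_of_isConj (isConj_iff.2 ⟨g, rfl⟩)

include hK in
theorem card_centralizer_reg_six (hm : 1 ≤ m) {n : ℕ} (hn : n = qA m ∨ n = qB m) {z : ↥(Gr K m)}
    (hd : orderOf z ∣ n) (h1 : 1 < orderOf z) :
    Nat.card ↥(Subgroup.centralizer ({z} : Set ↥(Gr K m))) = n := by
  obtain ⟨p, hp, hpd⟩ := Nat.exists_prime_and_dvd (n := orderOf z) (by omega)
  have hw := H47.Ree.exists_pow_prime z hpd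
  obtain ⟨-, hc⟩ := H47.Ree.card_centralizer_six hm hK hp hw hn (hpd.trans hd)
  have hP : p ∣ qA m * qB m := by
    rcases hn with rfl | rfl
    · exact (hpd.trans hd).mul_right _
    · exact (hpd.trans hd).mul_left _
  obtain ⟨-, -, -, -, hTI, -⟩ := H47.Ree.six_facts hm hK hp hP hw
  rw [hTI z (Subgroup.mem_centralizer_singleton_iff.2 ((Commute.refl z).pow_right _))
    (fun e => by rw [e, orderOf_one] at h1; omega)]
  exact hc

include hK in
open Classical in
/-- The regular semisimple elements fall into exactly `q - 2` classes, and their centralisers are small. -/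
theorem reg_classes [Fintype ↥(Gr K m)] (hm : 1 ≤ m) :
    ((Finset.univ.filter fun z : ↥(Gr K m) => IsReg z).image ConjClasses.mk).card + 2 = 3 ^ (2 * m + 1) := by
  classical
  set q := 3 ^ (2 * m + 1) with hq
  set a := qA m
  set b := qB m
  obtain ⟨hab, hsum, ha5, hb5, hq27⟩ := H47.Ree.six_arith hm
  obtain ⟨k, k', -, -, hqk, hqk', hq3, -⟩ := H47.Ree.q_arith m
  have hcop := H47.Ree.six_coprime hm
  have hcab := H47.Ree.qA_coprime_qB hm
  have hR := H47.Ree.card_R_factor (K := K) hm hK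
  set Q := q ^ 3 * (q - 1) * (q + 1) with hQ
  have hk3 : ∀ n, (n ∣ q - 1 ∨ n ∣ q + 1 ∨ n ∣ a * b) → ¬ 3 ∣ n := by
    intro n hn h3
    rcases hn with h | h | h
    · have := h3.trans h; omega
    · have := h3.trans h; omega
    · exact (H47.Ree.six_prime hm Nat.prime_three (h3.trans h)).2.1 rfl
  let S : (ℕ → Prop) → Finset ↥(Gr K m) := fun p => Finset.univ.filter fun z => p (orderOf z)
  have hconj : ∀ p, ∀ x ∈ S p, ∀ y, IsConj x y → y ∈ S p := by
    intro p x hx y hxy
    obtain ⟨c, rfl⟩ := isConj_iff.1 hxy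
    simpa [S, H47.Ree.orderOf_conj] using hx
  have hn : ∀ p, (S p).card = {z : ↥(Gr K m) | p (orderOf z)}.ncard := fun p => by
    rw [← Set.ncard_coe_finset]; simp [S]
  have hmemS : ∀ p z, z ∈ S p ↔ p (orderOf z) := fun p z => by simp [S]
  set pH := fun n => n ∣ q - 1 ∧ 2 < n
  set pT := fun n => n ∣ q + 1 ∧ 2 < n
  set pA := fun n => n ∣ a ∧ 1 < n
  set pB := fun n => n ∣ b ∧ 1 < n
  have hsc : ∀ p c, (∀ z ∈ S p, Nat.card ↥(Subgroup.centralizer ({z} : Set ↥(Gr K m))) = c) →
      (S p).card * c = ((S p).image ConjClasses.mk).card * Nat.card ↥(Gr K m) := by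
    intro p c h
    rw [← sum_centralizer_card _ (hconj p), Finset.sum_congr rfl h, Finset.sum_const, smul_eq_mul]
  have eH := hsc pH (q - 1) fun z hz => card_centralizer_qm1 hK ((hmemS _ z).1 hz).1 ((hmemS _ z).1 hz).2
  have eT := hsc pT (q + 1) fun z hz => card_centralizer_qp1 hK hm ((hmemS _ z).1 hz).1 ((hmemS _ z).1 hz).2
  have eA := hsc pA a fun z hz => card_centralizer_reg_six hK hm (Or.inl rfl) ((hmemS _ z).1 hz).1 ((hmemS _ z).1 hz).2
  have eB := hsc pB b fun z hz => card_centralizer_reg_six hK hm (Or.inr rfl) ((hmemS _ z).1 hz).1 ((hmemS _ z).1 hz).2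
  have disj : ∀ n, ¬ (pA n ∧ pB n) ∧ ¬ (pH n ∧ pT n) ∧ ¬ ((pA n ∨ pB n) ∧ (pH n ∨ pT n)) := by
    intro n
    refine ⟨fun h => absurd (Nat.eq_one_of_dvd_coprimes hcab h.1.1 h.2.1) (by omega), fun h => ?_, fun h => ?_⟩
    · have := Nat.dvd_sub h.2.1 h.1.1
      rw [show q + 1 - (q - 1) = 2 by omega] at this
      exact absurd (Nat.le_of_dvd (by norm_num) this) (by omega)
    · have hab' : n ∣ a * b := h.1.elim (fun e => e.1.mul_right _) (fun e => e.1.mul_left _)
      have hn1 : 1 < n := h.1.elim (·.2) (·.2)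
      have hQ' : n ∣ Q := h.2.elim (fun e => (e.1.mul_left _).mul_right _) (fun e => e.1.mul_left _)
      exact absurd (Nat.eq_one_of_dvd_coprimes hcop hab' hQ') (by omega)
  have hab2 : ∀ z : ↥(Gr K m), orderOf z ∣ a * b ∧ 1 < orderOf z → pA (orderOf z) ∨ pB (orderOf z) :=
    fun z h => (H47.Ree.dvd_factor hm hK h.1).imp (fun e => ⟨e, h.2⟩) fun e => ⟨e, h.2⟩
  have hreg : (Finset.univ.filter fun z : ↥(Gr K m) => IsReg z) = ((S pH ∪ S pT) ∪ S pA) ∪ S pB := by
    ext z
    simp only [S, Finset.mem_union, Finset.mem_filter, Finset.mem_univ, true_and]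
    constructor
    · rintro ⟨hlt, h3⟩
      rcases H47.Ree.order_cases hm hK z with h | h | h | h | h | h | h | h
      · omega
      · omega
      · exact absurd (h ▸ dvd_rfl) h3
      · exact absurd (h ▸ (by norm_num : 3 ∣ 6)) h3
      · exact absurd (h ▸ (by norm_num : 3 ∣ 9)) h3
      · exact Or.inl (Or.inl (Or.inl h))
      · exact Or.inl (Or.inl (Or.inr h))
      · rcases hab2 z h with h | h
        · exact Or.inl (Or.inr h)
        · exact Or.inr h
    · have hbig : ∀ n, n ∣ a * b → 1 < n → 2 < n := by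
        intro n h h1
        by_contra h2
        obtain rfl : n = 2 := by omega
        exact (H47.Ree.six_prime hm Nat.prime_two h).1 rfl
      rintro (((h | h) | h) | h)
      · exact ⟨h.2, hk3 _ (Or.inl h.1)⟩
      · exact ⟨h.2, hk3 _ (Or.inr (Or.inl h.1))⟩
      · exact ⟨hbig _ (h.1.mul_right _) h.2, hk3 _ (Or.inr (Or.inr (h.1.mul_right _)))⟩
      · exact ⟨hbig _ (h.1.mul_left _) h.2, hk3 _ (Or.inr (Or.inr (h.1.mul_left _)))⟩
  have hd : ∀ p p', (∀ n, ¬ (p n ∧ p' n)) →
      Disjoint ((S p).image ConjClasses.mk) ((S p').image ConjClasses.mk) := by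
    intro p p' h
    rw [Finset.disjoint_left]
    intro C hC hC'
    obtain ⟨x, hx, rfl⟩ := Finset.mem_image.1 hC
    obtain ⟨y, hy, e⟩ := Finset.mem_image.1 hC'
    exact h _ ⟨(Finset.mem_filter.1 hx).2,
      (Finset.mem_filter.1 (hconj p' y hy x (ConjClasses.mk_eq_mk_iff_isConj.1 e))).2⟩
  rw [hreg, Finset.image_union, Finset.image_union, Finset.image_union, Finset.card_union_of_disjoint,
    Finset.card_union_of_disjoint, Finset.card_union_of_disjoint (hd _ _ fun n => (disj n).2.1)]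
  rotate_left
  · exact Finset.disjoint_union_left.2 ⟨hd _ _ fun n h => (disj n).2.2 ⟨Or.inl h.2, Or.inl h.1⟩,
      hd _ _ fun n h => (disj n).2.2 ⟨Or.inl h.2, Or.inr h.1⟩⟩
  · exact Finset.disjoint_union_left.2 ⟨Finset.disjoint_union_left.2
      ⟨hd _ _ fun n h => (disj n).2.2 ⟨Or.inr h.2, Or.inl h.1⟩,
        hd _ _ fun n h => (disj n).2.2 ⟨Or.inr h.2, Or.inr h.1⟩⟩, hd _ _ fun n => (disj n).1⟩
  have H1 := H47.Ree.card_qm1 (m := m) hK
  have H2 := H47.Ree.card_qp1 hm hK
  have H3 := H47.Ree.card_six_set hm hK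
  rw [← hn pH] at H1
  rw [← hn pT] at H2
  have hsix : {z : ↥(Gr K m) | orderOf z ∣ a * b ∧ 1 < orderOf z}.ncard = (S pA).card + (S pB).card := by
    rw [← Finset.card_union_of_disjoint (Finset.disjoint_left.2 fun z h h' => (disj _).1 ⟨(hmemS _ z).1 h, (hmemS _ z).1 h'⟩),
      ← Set.ncard_coe_finset]
    congr 1
    ext z
    simp only [S, Set.mem_setOf_eq, Finset.coe_union, Set.mem_union, Finset.coe_filter, Finset.mem_univ, true_and]
    exact ⟨hab2 z, fun h => h.elim (fun e => ⟨e.1.mul_right _, e.2⟩) fun e => ⟨e.1.mul_left _, e.2⟩⟩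
  rw [hsix, hR] at H3
  rw [hR] at eH eT eA eB
  generalize (S pH).card = nH at eH H1
  generalize (S pT).card = nT at eT H2
  generalize (S pA).card = nA at eA H3
  generalize (S pB).card = nB at eB H3
  generalize ((S pH).image ConjClasses.mk).card = kH at eH ⊢
  generalize ((S pT).image ConjClasses.mk).card = kT at eT ⊢
  generalize ((S pA).image ConjClasses.mk).card = kA at eA ⊢
  generalize ((S pB).image ConjClasses.mk).card = kB at eB ⊢
  have hQ0 : 0 < Q := by
    have : 0 < q - 1 := by omega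
    positivity
  have h1 : 2 * kH = q - 3 := by
    refine Nat.eq_of_mul_eq_mul_right (show 0 < Q * (a * b) by positivity) ?_
    calc 2 * kH * (Q * (a * b)) = 2 * (kH * (Q * (a * b))) := by ring
      _ = 2 * nH * (q - 1) := by rw [← eH]; ring
      _ = (q - 3) * q ^ 3 * (q ^ 3 + 1) * (q - 1) := by rw [H1]
      _ = (q - 3) * (Q * (a * b)) := by
        have e : q ^ 3 + 1 = (q + 1) * (a * b) := by
          have h' : ((a * b : ℕ) : ℤ) + q = (q : ℤ) ^ 2 + 1 := by exact_mod_cast hab
          zify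
          push_cast at h'
          linear_combination -((q : ℤ) + 1) * h'
        rw [e, hQ]; ring
  have h2 : 6 * kT = q - 3 := by
    refine Nat.eq_of_mul_eq_mul_right (show 0 < Q * (a * b) by positivity) ?_
    calc 6 * kT * (Q * (a * b)) = 6 * (kT * (Q * (a * b))) := by ring
      _ = 6 * nT * (q + 1) := by rw [← eT]; ring
      _ = (q - 3) * q ^ 3 * (q - 1) * (a * b) * (q + 1) := by rw [H2]
      _ = _ := by rw [hQ]; ring
  have hnA : nA = kA * Q * b := Nat.eq_of_mul_eq_mul_right (show 0 < a by omega) (by rw [eA]; ring)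
  have hnB : nB = kB * Q * a := Nat.eq_of_mul_eq_mul_right (show 0 < b by omega) (by rw [eB]; ring)
  subst hnA hnB
  have h3 : (6 * kA + 1) * b + (6 * kB + 1) * a = a * b + b * a := by
    refine Nat.eq_of_mul_eq_mul_left hQ0 ?_
    change 6 * ((kA * Q * b + kB * Q * a : ℕ) : ℤ) = 2 * ((Q * (a * b) : ℕ) : ℤ) - ((Q : ℕ) : ℤ) * ((a + b : ℕ) : ℤ) at H3
    clear_value Q a b
    push_cast at H3
    zify
    linear_combination H3
  have dA : a ∣ 6 * kA + 1 := by
    refine hcab.dvd_of_dvd_mul_right ?_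
    exact (Nat.dvd_add_left (Dvd.intro_left _ rfl)).1 (h3 ▸ dvd_add (dvd_mul_right a b) (dvd_mul_left a b))
  have dB : b ∣ 6 * kB + 1 := by
    refine hcab.symm.dvd_of_dvd_mul_right ?_
    exact (Nat.dvd_add_right (Dvd.intro_left _ rfl)).1 (h3 ▸ dvd_add (dvd_mul_left b a) (dvd_mul_right b a))
  have lA := Nat.mul_le_mul_right b (Nat.le_of_dvd (by omega) dA)
  have lB := Nat.mul_le_mul_right a (Nat.le_of_dvd (by omega) dB)
  have eA' : 6 * kA + 1 = a := Nat.eq_of_mul_eq_mul_right (show 0 < b by omega) (by linarith)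
  have eB' : 6 * kB + 1 = b := Nat.eq_of_mul_eq_mul_right (show 0 < a by omega) (by linarith)
  omega

/-- Every regular semisimple element is conjugate to some `z₁ h n`. -/
theorem exists_isConj_kR (hm : 1 ≤ m) {x : ↥(Gr K m)} (hx : IsReg x) : ∃ s, IsConj (kR hK s) x := by
  classical
  haveI : Fintype ↥(Gr K m) := Fintype.ofFinite _
  haveI := (H48.Ree.field_data hK).1
  have hreg : ∀ s : Kˣ, s ≠ -1 → IsReg (kR (m := m) hK s) := by
    intro s hs
    by_contra hn
    have hsmall : orderOf (kR (m := m) hK s) = 1 ∨ orderOf (kR (m := m) hK s) = 2 ∨ orderOf (kR (m := m) hK s) = 3 ∨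
        orderOf (kR (m := m) hK s) = 6 ∨ orderOf (kR (m := m) hK s) = 9 := by
      by_cases h3 : 3 ∣ orderOf (kR (m := m) hK s)
      · rcases H47.Ree.three_dvd_cases hK _ h3 with h | h | h
        · exact Or.inr (Or.inr (Or.inl h))
        · exact Or.inr (Or.inr (Or.inr (Or.inl h)))
        · exact Or.inr (Or.inr (Or.inr (Or.inr h)))
      · have := orderOf_pos (kR (m := m) hK s)
        have : ¬ 2 < orderOf (kR (m := m) hK s) := fun h => hn ⟨h, h3⟩
        omega
    rcases trR_small hK hm hsmall with h | h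
    · exact trR_kR_ne_one hK s h
    · exact hs (trR_kR_eq_two hK h)
  set T := (Finset.univ.erase (-1 : Kˣ)).image fun s => ConjClasses.mk (kR (m := m) hK s)
  have hT : T = (Finset.univ.filter fun z : ↥(Gr K m) => IsReg z).image ConjClasses.mk := by
    refine Finset.eq_of_subset_of_card_le (fun C hC => ?_) ?_
    · obtain ⟨s, hs, rfl⟩ := Finset.mem_image.1 hC
      exact Finset.mem_image_of_mem _ (Finset.mem_filter.2 ⟨Finset.mem_univ _, hreg s (Finset.ne_of_mem_erase hs)⟩)
    · have h := reg_classes hK hm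
      rw [Finset.card_image_of_injective _ (fun s s' e => trR_kR_injective hK
        (trR_isConj (ConjClasses.mk_eq_mk_iff_isConj.1 e))), Finset.card_erase_of_mem (Finset.mem_univ _),
        Finset.card_univ, Fintype.card_units, hK]
      omega
  have hmem : ConjClasses.mk x ∈ T := hT ▸ Finset.mem_image_of_mem _ (Finset.mem_filter.2 ⟨Finset.mem_univ _, hx⟩)
  obtain ⟨s, -, hs⟩ := Finset.mem_image.1 hmem
  exact ⟨s, ConjClasses.mk_eq_mk_iff_isConj.1 hs⟩

end Cfsg.Agent.H19.ReeSq
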