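import Cfsg.Agent.H19.ReeTrace
import Cfsg.Agent.H47.Ree.Orders
import Cfsg.Agent.H71.ReeMinDegree

/-!
Coordinates on the small Ree group adapted to the trace function: the unipotent elements, the parametrised torus
and the trace on the cell `U H n`.
-/

set_option autoImplicit false

open Cfsg.Lie Cfsg.Agent.H46
open scoped Matrix

namespace Cfsg.Agent.H19.ReeSq

open Cfsg.Agent.H48.Ree (W Gr Hr Ur)
open Cfsg.Agent.H47.Ree (cell nR tR)

variable {K : Type*} [Field K] [Fintype K] {m : ℕ}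

/-- The element `W t u v` of the group. -/
noncomputable def wR (m : ℕ) (t u v : K) : ↥(Gr K m) := ⟨W (3 ^ m) t u v, H48.Ree.W_mem_twisted _ _ _ _⟩

/-- The central unipotent elements. -/
noncomputable abbrev zR (m : ℕ) (v : K) : ↥(Gr K m) := wR m 0 0 v

theorem exists_hp (hK : Fintype.card K = 3 ^ (2 * m + 1)) :
    ∃ f : Kˣ →* ↥(Gr K m), Function.Injective f ∧ (∀ g, g ∈ (cell hK).H ↔ ∃ s, f s = g) ∧
      ∀ (s : Kˣ) (t u v : K), f s * wR m t u v * (f s)⁻¹ =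
        wR m ((s : K) * t) ((s : K) ^ (3 * 3 ^ m + 1) * u) ((s : K) ^ (3 * 3 ^ m + 2) * v) := by
  haveI := (H48.Ree.field_data hK).1
  obtain ⟨ψ, hψ, hact⟩ := H48.Ree.exists_param (H48.Ree.uShape hK)
  have hbij : Function.Bijective ψ := by
    haveI : Finite ↥(chevG2.diagonalSubgroup K ⊓ twistedG2 K (3 ^ m)) := Finite.of_injective ψ hψ
    refine (Nat.bijective_iff_injective_and_card ψ).2 ⟨hψ, ?_⟩
    rw [H65.Twist.ree_card_diagonal hK, Nat.card_units, Nat.card_eq_fintype_card, hK]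
  set E := MulEquiv.ofBijective ψ hbij with hE
  have hle : chevG2.diagonalSubgroup K ⊓ twistedG2 K (3 ^ m) ≤ Gr K m := inf_le_right
  refine ⟨(Subgroup.inclusion hle).comp E.symm.toMonoidHom, ?_, fun g => ?_, fun s t u v => ?_⟩
  · exact (Subgroup.inclusion_injective hle).comp E.symm.injective
  · constructor
    · intro hg
      exact ⟨E ⟨g, hg⟩, Subtype.ext (congrArg Subtype.val (E.symm_apply_apply ⟨g, hg⟩) :)⟩
    · rintro ⟨s, rfl⟩
      exact (E.symm s).2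
  · refine Subtype.ext ?_
    have hs : ψ (E.symm s) = s := E.apply_symm_apply s
    have e := hact (E.symm s) t u v
    rw [hs] at e
    exact e

/-- The torus element with a given parameter. -/
noncomputable def hp (hK : Fintype.card K = 3 ^ (2 * m + 1)) : Kˣ →* ↥(Gr K m) := (exists_hp hK).choose

variable (hK : Fintype.card K = 3 ^ (2 * m + 1))

theorem hp_injective : Function.Injective (hp (m := m) hK) := (exists_hp hK).choose_spec.1

theorem mem_H_iff (g : ↥(Gr K m)) : g ∈ (cell hK).H ↔ ∃ s, hp hK s = g := (exists_hp hK).choose_spec.2.1 g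

theorem hp_mem (s : Kˣ) : hp hK s ∈ (cell (m := m) hK).H := (mem_H_iff hK _).2 ⟨s, rfl⟩

theorem hp_conj (s : Kˣ) (t u v : K) : hp hK s * wR m t u v * (hp hK s)⁻¹ =
    wR m ((s : K) * t) ((s : K) ^ (3 * 3 ^ m + 1) * u) ((s : K) ^ (3 * 3 ^ m + 2) * v) :=
  (exists_hp hK).choose_spec.2.2 s t u v

theorem wR_mem (t u v : K) : wR m t u v ∈ (cell hK).U := H48.Ree.W_mem_U _ _ _ _

include hK in
theorem wR_injective {t u v t' u' v' : K} (h : wR m t u v = wR m t' u' v') : t = t' ∧ u = u' ∧ v = v' := by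
  haveI := (H48.Ree.field_data hK).1
  exact H48.Ree.W_injective (congrArg Subtype.val h)

include hK in
theorem wR_mul (t u v s u' v' : K) :
    wR m t u v * wR m s u' v' = wR m (t + s) (u + u' - t * s ^ (3 * 3 ^ m))
        (v + v' - t ^ 2 * s ^ (3 * 3 ^ m) - s * u + t * s ^ (3 * 3 ^ m + 1)) := by
  haveI := (H48.Ree.field_data hK).1
  exact Subtype.ext (H48.Ree.W_mul (H48.Ree.field_data hK).2 t u v s u' v')

theorem wR_zero : wR m (0 : K) 0 0 = 1 := Subtype.ext (H48.Ree.W_zero m)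

include hK in
theorem wR_mul' (b v b' v' : K) : wR m 0 b v * wR m 0 b' v' = wR m 0 (b + b') (v + v') := by
  rw [wR_mul hK]
  congr 1 <;> simp

include hK in
theorem wR_inv' (b v : K) : (wR m 0 b v)⁻¹ = wR m 0 (-b) (-v) := by
  refine inv_eq_of_mul_eq_one_right ?_
  rw [wR_mul' hK, add_neg_cancel, add_neg_cancel, wR_zero]

theorem U_eq {g : ↥(Gr K m)} (hg : g ∈ (cell hK).U) : ∃ t u v, g = wR m t u v := by
  obtain ⟨t, u, v, e⟩ := H47.Ree.U_shape hK hg
  exact ⟨t, u, v, Subtype.ext e⟩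

theorem n_hp (s : Kˣ) : nR hK * hp hK s = hp hK s⁻¹ * nR (m := m) hK := by
  have h := (cell (m := m) hK).n_inv' (hp_mem hK s⁻¹)
  rw [map_inv, inv_inv] at h
  rw [map_inv]
  exact h.symm

theorem hp_neg_one : hp hK (-1) = tR (m := m) hK := by
  haveI := (H48.Ree.field_data hK).1
  obtain ⟨s, hs⟩ := (mem_H_iff hK _).1 (H47.Ree.tR_mem (m := m) hK)
  rw [← hs]
  refine congrArg _ (Units.ext ?_)
  have e := hp_conj (m := m) hK s 1 0 0
  rw [hs] at e
  have e2 := congrArg Subtype.val e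
  rw [Subgroup.coe_mul, Subgroup.coe_mul, Subgroup.coe_inv] at e2
  change (tR hK : GL chevG2.Idx K) * W (3 ^ m) 1 0 0 * (tR hK : GL chevG2.Idx K)⁻¹ = _ at e2
  rw [H47.Ree.tR_conj_W hK] at e2
  have := (H48.Ree.W_injective e2).1
  rw [mul_one] at this
  rw [← this, Units.val_neg, Units.val_one]

/-- The trace in the adjoint representation. -/
noncomputable def trR (g : ↥(Gr K m)) : K :=
  Matrix.trace ((g : GL chevG2.Idx K) : Matrix chevG2.Idx chevG2.Idx K)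

omit [Fintype K] in
theorem trR_conj (g x : ↥(Gr K m)) : trR (g * x * g⁻¹) = trR x := by
  simp only [trR, Subgroup.coe_mul, Subgroup.coe_inv, Units.val_mul]
  rw [Matrix.trace_units_conj]

omit [Fintype K] in
theorem trR_isConj {x y : ↥(Gr K m)} (h : IsConj x y) : trR x = trR y := by
  obtain ⟨c, rfl⟩ := isConj_iff.1 h
  rw [trR_conj]

/-- The trace on the cell. -/
theorem trR_cell (s : Kˣ) (t u v : K) : trR (wR m t u v * hp hK s * nR hK) =
    1 + t ^ 2 * ((s : K))⁻¹ + (t ^ 3 ^ m) ^ 2 * (((s : K) ^ 3 ^ m))⁻¹ +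
      ((t ^ (3 ^ m + 1) + u ^ 3 ^ m) ^ 2 - t * (t ^ (2 * 3 ^ m + 1) + v ^ 3 ^ m)) *
        (((s : K) ^ (3 ^ m + 1)))⁻¹ +
      ((t ^ (2 * 3 ^ m + 1) + v ^ 3 ^ m) ^ 2 + (t ^ (3 ^ m + 1) + u ^ 3 ^ m) * u - t ^ 3 ^ m * v +
        t ^ 3 ^ m * (t ^ (3 ^ m + 1) + u ^ 3 ^ m) * (t ^ (2 * 3 ^ m + 1) + v ^ 3 ^ m) - t ^ 3 ^ m * t * u) *
        (((s : K) ^ (2 * 3 ^ m + 1)))⁻¹ +
      (u ^ 2 - (t ^ 3 ^ m) ^ 3 * v - (t ^ 3 ^ m) ^ 3 * t * u) * (((s : K) ^ (3 * 3 ^ m + 1)))⁻¹ +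
      (v ^ 2 + (t ^ (3 ^ m + 1) + u ^ 3 ^ m) ^ 3 * u + t * u * v - t * (t ^ (2 * 3 ^ m + 1) + v ^ 3 ^ m) ^ 3) *
        (((s : K) ^ (3 * 3 ^ m + 2)))⁻¹ := by
  haveI := (H48.Ree.field_data hK).1
  have hh := hp_mem (m := m) hK s
  obtain ⟨z, hz'⟩ := goodG2.mem_diagonal.1 (Subgroup.mem_inf.1 (hh : (hp hK s : GL chevG2.Idx K) ∈ Hr K m)).1
  have hz : (hp hK s : GL chevG2.Idx K) = goodG2.torus z := hz'
  have hzG : goodG2.torus z ∈ twistedG2 K (3 ^ m) := hz ▸ (hp hK s).2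
  obtain ⟨h7, hact⟩ := H48.Ree.torus_action (H48.Ree.uShape hK) hzG
  have h6 : (goodG2.torusVal z 6 : K) = s := by
    have e := congrArg Subtype.val (hp_conj (m := m) hK s 1 0 0)
    rw [Subgroup.coe_mul, Subgroup.coe_mul, Subgroup.coe_inv] at e
    change (hp hK s : GL chevG2.Idx K) * W (3 ^ m) 1 0 0 * (hp hK s : GL chevG2.Idx K)⁻¹ = _ at e
    rw [hz, hact] at e
    simpa using (H48.Ree.W_injective e).1
  obtain ⟨h8, h9, h10, h11⟩ := H48.Ree.torusVal_rel z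
  have h := ReeTrace.trace_P_torus_refl (t ^ 3 ^ m) t (t ^ (3 ^ m + 1) + u ^ 3 ^ m)
    (t ^ (2 * 3 ^ m + 1) + v ^ 3 ^ m) u v z
  refine (Eq.trans ?_ h).trans ?_
  rotate_left
  · rw [h8, h9, h10, h11, h7]
    simp only [Units.val_inv_eq_inv_val, Units.val_mul, Units.val_pow_eq_pow_val, h6, pow_add, pow_one,
      mul_comm (2 : ℕ), mul_comm (3 : ℕ), pow_mul]
  · show Matrix.trace (((wR m t u v * hp hK s * nR hK : ↥(Gr K m)) : GL chevG2.Idx K) :
      Matrix chevG2.Idx chevG2.Idx K) = _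
    rw [Subgroup.coe_mul, Subgroup.coe_mul, hz,
      show ((nR hK : ↥(Gr K m)) : GL chevG2.Idx K) = H65.Twist.wordEl goodG2 H65.Twist.reeTopWord from
        H47.Ree.reeN_word]
    rfl

end Cfsg.Agent.H19.ReeSq
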