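import Cfsg.Agent.H19.ReeSq.Products
import Cfsg.Agent.H19.ReeSq.Chars
import Cfsg.Agent.H65.Twist.ReeMain

/-!
In a small Ree group every non-identity element is a product of two conjugates of a given element of order above two
and prime to three.
-/

set_option autoImplicit false

open Cfsg.Lie Cfsg.Agent.H46

namespace Cfsg.Agent.H19.ReeSq

open Cfsg.Agent.H48.Ree (Gr)
open Cfsg.Agent.H47.Ree (cell nR tR qA qB)

variable {K : Type*} [Field K] [Fintype K] {m : ℕ} (hK : Fintype.card K = 3 ^ (2 * m + 1))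

include hK

/-- The centraliser of an element of order nine has at most `3q` elements. -/
theorem card_centralizer_nine {g : ↥(Gr K m)} (hg : orderOf g = 9) :
    Nat.card ↥(Subgroup.centralizer ({g} : Set ↥(Gr K m))) ≤ 3 * 3 ^ (2 * m + 1) := by
  classical
  haveI : Fintype ↥(Gr K m) := Fintype.ofFinite _
  haveI := (H48.Ree.field_data hK).1
  have hq := (H48.Ree.field_data hK).2
  obtain ⟨c₀, hc₀⟩ := H47.Ree.exists_conj_mem_pow (n := 2) Nat.prime_three (H47.Ree.index_U hK)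
    (x := g) (by rw [hg]; norm_num)
  rw [H26.card_centralizer_eq_of_isConj (isConj_iff.2 ⟨c₀, rfl⟩ : IsConj g (c₀ * g * c₀⁻¹))]
  obtain ⟨t, b, v, e⟩ := U_eq hK hc₀
  have ho : orderOf (wR m t b v) = 9 := by rw [← e, H47.Ree.orderOf_conj, hg]
  rw [e]
  have hw1 : wR m t b v ≠ 1 := fun h => by rw [h, orderOf_one] at ho; omega
  have ht : t ≠ 0 := fun h => by
    have h3 := Nat.le_of_dvd (by norm_num) (orderOf_dvd_of_pow_eq_one
      ((H47.Ree.U_cube hK (u := wR m t b v) rfl).2 h))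
    omega
  let f : ({a : K // a = 0 ∨ a = t ∨ a = -t}) × K → ↥(Gr K m) := fun p =>
    wR m p.1.1 ((-(p.1.1 ^ 2 * t ^ (3 * 3 ^ m)) + p.1.1 * t ^ (3 * 3 ^ m + 1) + t ^ 2 * p.1.1 ^ (3 * 3 ^ m) +
      p.1.1 * b - t * p.1.1 ^ (3 * 3 ^ m + 1)) / t) p.2
  have hsub : ∀ c ∈ Subgroup.centralizer ({wR m t b v} : Set ↥(Gr K m)), ∃ p, f p = c := by
    intro c hc
    rw [Subgroup.mem_centralizer_singleton_iff] at hc
    obtain ⟨u, hu, h, hh, rfl⟩ := (cell hK).commute_unipotent (wR_mem hK t b v) hw1 hc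
    obtain ⟨a, b', v', rfl⟩ := U_eq hK hu
    obtain ⟨s, rfl⟩ := (mem_H_iff hK h).1 hh
    have hswap : hp hK s * wR m t b v =
        wR m ((s : K) * t) ((s : K) ^ (3 * 3 ^ m + 1) * b) ((s : K) ^ (3 * 3 ^ m + 2) * v) * hp hK s := by
      rw [← hp_conj (m := m) hK s t b v, inv_mul_cancel_right]
    rw [mul_assoc, hswap, ← mul_assoc, ← mul_assoc, mul_left_inj, wR_mul hK, wR_mul hK] at hc
    obtain ⟨e1, e2, e3⟩ := wR_injective hK hc
    have hs : (s : K) = 1 := mul_right_cancel₀ ht (by linear_combination e1)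
    obtain rfl : s = 1 := Units.ext hs
    simp only [Units.val_one, one_mul, one_pow] at e2 e3
    rw [map_one, mul_one]
    have hr : (a / t) ^ (3 * 3 ^ m) = a / t := by
      rw [div_pow, div_eq_div_iff (pow_ne_zero _ ht) ht]
      linear_combination e2
    have hr3 : (a / t) ^ 3 = a / t := by
      have h9 : ((a / t) ^ (3 * 3 ^ m)) ^ (3 * 3 ^ m) = (a / t) ^ 3 := by
        rw [← pow_mul, show 3 * 3 ^ m * (3 * 3 ^ m) = 3 ^ (2 * m + 1) * 3 by ring, pow_mul, hq]
      rw [hr, hr] at h9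
      exact h9.symm
    have ha : a = 0 ∨ a = t ∨ a = -t := by
      have h0 : a / t * ((a / t - 1) * (a / t + 1)) = 0 := by linear_combination hr3
      rcases mul_eq_zero.1 h0 with h | h
      · exact Or.inl ((div_eq_zero_iff.1 h).resolve_right ht)
      rcases mul_eq_zero.1 h with h | h
      · exact Or.inr (Or.inl (by rw [sub_eq_zero, div_eq_one_iff_eq ht] at h; exact h))
      · refine Or.inr (Or.inr ?_)
        rw [add_eq_zero_iff_eq_neg, div_eq_iff ht] at h
        linear_combination h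
    refine ⟨⟨⟨a, ha⟩, v'⟩, ?_⟩
    show wR m a _ v' = wR m a b' v'
    congr 1
    rw [div_eq_iff ht]
    linear_combination e3
  calc Nat.card ↥(Subgroup.centralizer ({wR m t b v} : Set ↥(Gr K m)))
      ≤ Nat.card (({a : K // a = 0 ∨ a = t ∨ a = -t}) × K) :=
        Nat.card_le_card_of_injective (fun c => (hsub c.1 c.2).choose) fun c d h => Subtype.ext (by
          rw [← (hsub c.1 c.2).choose_spec, ← (hsub d.1 d.2).choose_spec]
          exact congrArg f h)
    _ ≤ 3 * 3 ^ (2 * m + 1) := by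
        rw [Nat.card_prod, Nat.card_eq_fintype_card (α := K), hK]
        refine Nat.mul_le_mul_right _ ?_
        rw [Nat.card_eq_fintype_card, Fintype.card_subtype]
        refine (Finset.card_le_card (t := {0, t, -t}) fun a ha => ?_).trans Finset.card_le_three
        simpa using ha

/-- The centraliser of an element of order six has at most `2q` elements. -/
theorem card_centralizer_order_six {g : ↥(Gr K m)} (hg : orderOf g = 6) :
    Nat.card ↥(Subgroup.centralizer ({g} : Set ↥(Gr K m))) ≤ 2 * 3 ^ (2 * m + 1) := by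
  classical
  haveI : Fintype ↥(Gr K m) := Fintype.ofFinite _
  haveI := (H48.Ree.field_data hK).1
  have hq := (H48.Ree.field_data hK).2
  have h2 : orderOf (g ^ 2) = 3 := by
    rw [orderOf_pow_of_dvd (by norm_num) (by rw [hg]; norm_num), hg]
  obtain ⟨c₀, hc₀⟩ := H47.Ree.exists_conj_mem_pow (n := 1) Nat.prime_three (H47.Ree.index_U hK)
    (x := g ^ 2) (by rw [h2, pow_one])
  rw [H26.card_centralizer_eq_of_isConj (isConj_iff.2 ⟨c₀, rfl⟩ : IsConj g (c₀ * g * c₀⁻¹))]
  obtain ⟨g', hg'⟩ : ∃ g', g' = c₀ * g * c₀⁻¹ := ⟨_, rfl⟩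
  rw [← hg']
  obtain ⟨t, b, v, e⟩ := U_eq hK hc₀
  rw [← conj_pow, ← hg'] at e
  have hg'o : orderOf g' = 6 := by rw [hg', H47.Ree.orderOf_conj, hg]
  have ho : orderOf (wR m t b v) = 3 := by
    rw [← e, orderOf_pow_of_dvd (by norm_num) (by rw [hg'o]; norm_num), hg'o]
  obtain rfl : t = 0 := (H47.Ree.U_cube hK (u := wR m t b v) rfl).1 (by rw [← ho, pow_orderOf_eq_one])
  have hw1 : wR m 0 b v ≠ 1 := fun h => by rw [h, orderOf_one] at ho; omega
  have shape : ∀ c, c * wR m 0 b v = wR m 0 b v * c → ∃ a b' v', ∃ s : Kˣ, c = wR m a b' v' * hp hK s ∧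
      (s : K) ^ (3 * 3 ^ m + 1) * b = b ∧ (s : K) ^ (3 * 3 ^ m + 2) * v = v - a * b := by
    intro c hc
    obtain ⟨u, hu, h, hh, rfl⟩ := (cell hK).commute_unipotent (wR_mem hK 0 b v) hw1 hc
    obtain ⟨a, b', v', rfl⟩ := U_eq hK hu
    obtain ⟨s, rfl⟩ := (mem_H_iff hK h).1 hh
    have hswap : hp hK s * wR m 0 b v =
        wR m ((s : K) * 0) ((s : K) ^ (3 * 3 ^ m + 1) * b) ((s : K) ^ (3 * 3 ^ m + 2) * v) * hp hK s := by
      rw [← hp_conj (m := m) hK s 0 b v, inv_mul_cancel_right]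
    rw [mul_assoc, hswap, ← mul_assoc, ← mul_assoc, mul_left_inj, wR_mul hK, wR_mul hK] at hc
    obtain ⟨-, e2, e3⟩ := wR_injective hK hc
    simp only [mul_zero, zero_mul, zero_pow (show 3 * 3 ^ m ≠ 0 by positivity), sub_zero, add_zero,
      zero_pow (Nat.succ_ne_zero (3 * 3 ^ m)), zero_pow two_ne_zero] at e2 e3
    exact ⟨a, b', v', s, rfl, by linear_combination e2, by linear_combination e3⟩
  -- the involution
  have hj : orderOf (g' ^ 3) = 2 := by
    rw [orderOf_pow_of_dvd (by norm_num) (by rw [hg'o]; norm_num), hg'o]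
  have hjc : g' ^ 3 * wR m 0 b v = wR m 0 b v * g' ^ 3 := by rw [← e]; exact pow_mul_comm g' 3 2
  obtain ⟨a₀, b₀, v₀, s₀, ej, hs1, hs2⟩ := shape _ hjc
  have hs0 : s₀ ≠ 1 := by
    intro h
    rw [h, map_one, mul_one] at ej
    have := H47.Ree.odd_orderOf_U hK _ (wR_mem hK a₀ b₀ v₀)
    rw [← ej, hj] at this
    exact absurd this (by decide)
  have hb : b ≠ 0 := by
    intro hb
    subst hb
    have hv : v ≠ 0 := fun hv => hw1 (by rw [hv, wR_zero])
    refine hs0 (H71.ReeMinDegree.exponent_injective hq hK (Units.ext ?_))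
    rw [Units.val_pow_eq_pow_val, Units.val_one]
    refine mul_right_cancel₀ hv ?_
    rw [one_mul]
    linear_combination hs2
  have hpm : ∀ s : Kˣ, (s : K) ^ (3 * 3 ^ m + 1) * b = b → s = 1 ∨ s = -1 := by
    intro s hs
    obtain ⟨k, hkodd, hk⟩ := H48.Ree.exists_half m
    have h1 : s ^ (3 * 3 ^ m + 1) = 1 := Units.ext (by
      rw [Units.val_pow_eq_pow_val, Units.val_one]
      exact mul_right_cancel₀ hb (by rw [one_mul]; exact hs))
    have h2 : (s ^ 2) ^ k = 1 := by
      rw [← pow_mul, ← hk, ← hK, ← Fintype.card_units]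
      exact pow_card_eq_one
    have h3 := (H48.Ree.param_fixed_free hq (hkodd.of_dvd_nat (orderOf_dvd_of_pow_eq_one h2))).1
      (by rw [← pow_mul, mul_comm, pow_mul, h1, one_pow])
    rcases sq_eq_one_iff.1 (show ((s : Kˣ) : K) ^ 2 = 1 by rw [← Units.val_pow_eq_pow_val, h3, Units.val_one])
      with e | e
    · exact Or.inl (Units.ext e)
    · exact Or.inr (Units.ext (by rw [e, Units.val_neg, Units.val_one]))
  have hs0' : s₀ = -1 := (hpm _ hs1).resolve_left hs0
  have hcw : ∀ c ∈ Subgroup.centralizer ({g'} : Set ↥(Gr K m)), ∃ a b' v', ∃ s : Kˣ, c = wR m a b' v' * hp hK s ∧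
      (s = 1 ∨ s = -1) ∧ a = (v - (s : K) ^ (3 * 3 ^ m + 2) * v) / b := by
    intro c hc
    obtain ⟨a, b', v', s, rfl, e1, e2⟩ := shape c (by
      rw [← e]
      exact (Commute.pow_right (show Commute c g' from Subgroup.mem_centralizer_singleton_iff.1 hc) 2).eq)
    refine ⟨a, b', v', s, rfl, hpm s e1, ?_⟩
    rw [eq_div_iff hb]
    linear_combination e2
  choose fa fb fv fs hf hfs hfa using hcw
  refine (Nat.card_le_card_of_injective
    (fun c => ((decide (fs c.1 c.2 = 1)), fb c.1 c.2)) fun c d h => ?_).trans ?_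
  · obtain ⟨h1, h2⟩ := Prod.ext_iff.1 h
    dsimp only at h1 h2
    have hse : fs c.1 c.2 = fs d.1 d.2 := by
      rcases hfs c.1 c.2 with p | p <;> rcases hfs d.1 d.2 with r | r <;> rw [p, r] at h1 ⊢
      all_goals
        have h3 : (-1 : Kˣ) ≠ 1 := fun h => by
          have h4 : (-1 : K) = 1 := congrArg Units.val h
          exact one_ne_zero (α := K) (by linear_combination (H48.Ree.three0 (F := K)) + h4)
        simp [h3] at h1
    have hae : fa c.1 c.2 = fa d.1 d.2 := by rw [hfa c.1 c.2, hfa d.1 d.2, hse]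
    have hd : (c : ↥(Gr K m)) * (d : ↥(Gr K m))⁻¹ = zR m (fv c.1 c.2 - fv d.1 d.2) := by
      refine (congrArg₂ (fun p r : ↥(Gr K m) => p * r⁻¹) (hf c.1 c.2) (hf d.1 d.2)).trans ?_
      rw [hse, hae, h2, mul_inv_rev, ← mul_assoc, mul_inv_cancel_right,
        mul_inv_eq_iff_eq_mul, zR, wR_mul hK]
      congr 1 <;> simp
    obtain ⟨δ, hδ⟩ : ∃ δ, δ = fv c.1 c.2 - fv d.1 d.2 := ⟨_, rfl⟩
    rw [← hδ] at hd
    have hcom : g' ^ 3 * zR m δ = zR m δ * g' ^ 3 := by
      rw [← hd]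
      exact ((show Commute ((c : ↥(Gr K m)) * (d : ↥(Gr K m))⁻¹) g' from
        Subgroup.mem_centralizer_singleton_iff.1 (mul_mem c.2 (inv_mem d.2))).pow_right 3).eq.symm
    have hz : tR hK * zR m δ = zR m (-δ) * tR hK := by
      rw [← hp_neg_one hK, ← mul_inv_eq_iff_eq_mul, zR, hp_conj]
      have hodd : Odd (3 * 3 ^ m + 2) := (Odd.mul (by decide) (Odd.pow (by decide))).add_even (by decide)
      simp [hodd.neg_one_pow]
    rw [ej, hs0', hp_neg_one, mul_assoc, hz, ← mul_assoc, zR, zR, ← mul_assoc, mul_left_inj, wR_mul hK,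
      wR_mul hK] at hcom
    obtain ⟨-, -, e3⟩ := wR_injective hK hcom
    simp only [mul_zero, zero_mul, zero_pow (show 3 * 3 ^ m ≠ 0 by positivity), sub_zero, add_zero,
      zero_pow (Nat.succ_ne_zero (3 * 3 ^ m)), zero_pow two_ne_zero] at e3
    have hδ0 : δ = 0 := by linear_combination δ * (H48.Ree.three0 (F := K)) + e3
    rw [hδ0, zR, wR_zero, mul_inv_eq_one] at hd
    exact Subtype.ext hd
  · rw [Nat.card_prod, Nat.card_eq_fintype_card, Nat.card_eq_fintype_card, Fintype.card_bool, hK]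

/-- The covering theorem. -/
theorem covering (hm : 1 ≤ m) {x : ↥(Gr K m)} (hx : IsReg x) {g : ↥(Gr K m)} (hg : g ≠ 1) : InSq x g := by
  classical
  haveI : Fintype ↥(Gr K m) := Fintype.ofFinite _
  haveI := (H48.Ree.field_data hK).1
  obtain ⟨hab, -, ha5, hb5, hq27⟩ := H47.Ree.six_arith hm
  obtain ⟨e, he, he3⟩ : ∃ e, e = 3 ^ m ∧ 3 ≤ e := ⟨_, rfl, Nat.le_self_pow (by omega) 3⟩
  have hqe : 3 ^ (2 * m + 1) = 3 * e * e := by rw [he]; ring
  have hB : qB m = 3 ^ (2 * m + 1) + 3 * e + 1 := by rw [qB, he]; ring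
  have hA : qA m ≤ qB m := by rw [qA, qB]; omega
  have h3q : qB m ≤ 3 * 3 ^ (2 * m + 1) := by rw [hB, hqe]; nlinarith
  have hreg : ∀ z : ↥(Gr K m), IsReg z →
      Nat.card ↥(Subgroup.centralizer ({z} : Set ↥(Gr K m))) ≤ qB m := by
    intro z hz
    rcases H47.Ree.order_cases hm hK z with h | h | h | h | h | h | h | h
    · have := hz.1; omega
    · have := hz.1; omega
    · exact absurd (h ▸ dvd_rfl) hz.2
    · exact absurd (h ▸ (by norm_num : 3 ∣ 6)) hz.2
    · exact absurd (h ▸ (by norm_num : 3 ∣ 9)) hz.2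
    · rw [card_centralizer_qm1 hK h.1 h.2, hB]; omega
    · rw [card_centralizer_qp1 hK hm h.1 h.2, hB]; omega
    · rcases H47.Ree.dvd_factor hm hK h.1 with h' | h'
      · rw [card_centralizer_reg_six hK hm (Or.inl rfl) h' h.2]; exact hA
      · rw [card_centralizer_reg_six hK hm (Or.inr rfl) h' h.2]
  have hxC := hreg x hx
  by_cases hCg : Nat.card ↥(Subgroup.centralizer ({g} : Set ↥(Gr K m))) ≤ 3 * 3 ^ (2 * m + 1)
  · obtain ⟨y, y', hy, hy', hyy⟩ := exists_product_of_bound (H65.Twist.ree_perfect hK hm)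
      (D := (3 ^ (2 * m + 1)) ^ 2 - 3 ^ (2 * m + 1) + 1) (A := qB m) (B := 3 * 3 ^ (2 * m + 1))
      (fun k ρ hρ hk => H71.ReeMinDegree.min_degree hm hK k ρ hρ hk) x g hxC hCg (by
        rw [hB, Nat.add_sub_cancel, hqe]
        have hle : 3 * e * e ≤ (3 * e * e) ^ 2 := Nat.le_self_pow two_ne_zero _
        zify [hle]
        have h3 : (3 : ℤ) ≤ e := by exact_mod_cast he3
        have h4 : (0 : ℤ) ≤ 3 * (e : ℤ) * e * (3 * e * e - 1) - (3 * e * e + 3 * e) * (3 * e) := by nlinarith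
        nlinarith)
    exact ⟨y, y', hy, hy', hyy⟩
  rcases H47.Ree.order_cases hm hK g with h | h | h | h | h | h | h | h
  · exact absurd (orderOf_eq_one_iff.1 h) hg
  · exact inSq_involution hK hm hx h
  · exact inSq_three hK hm hx hxC h
  · exact absurd ((card_centralizer_order_six hK h).trans (by omega)) hCg
  · exact absurd (card_centralizer_nine hK h) hCg
  · refine absurd ((hreg g ⟨h.2, fun h3 => ?_⟩).trans h3q) hCg
    have := h3.trans h.1
    have : 3 ^ (2 * m + 1) % 3 = 0 := by rw [pow_succ, Nat.mul_mod_left]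
    omega
  · refine absurd ((hreg g ⟨h.2, fun h3 => ?_⟩).trans h3q) hCg
    have := h3.trans h.1
    have : 3 ^ (2 * m + 1) % 3 = 0 := by rw [pow_succ, Nat.mul_mod_left]
    omega
  · rcases H47.Ree.dvd_factor hm hK h.1 with h' | h'
    · exact absurd ((card_centralizer_reg_six hK hm (Or.inl rfl) h' h.2).le.trans (hA.trans h3q)) hCg
    · exact absurd ((card_centralizer_reg_six hK hm (Or.inr rfl) h' h.2).le.trans h3q) hCg

end Cfsg.Agent.H19.ReeSq
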