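import Cfsg.Agent.H19.ReeSq.Classes

/-!
Involutions and elements of order three as products of two elements of a class of regular semisimple elements.
-/

set_option autoImplicit false

open Cfsg.Lie Cfsg.Agent.H46

namespace Cfsg.Agent.H19.ReeSq

open Cfsg.Agent.H48.Ree (Gr)
open Cfsg.Agent.H47.Ree (cell nR tR qA qB)
open Cfsg.Agent.H65.Twist (wordEl chkEqMod reeTopWord reeInvWord)

/-- Being a product of two conjugates of `x`. -/
def InSq {G : Type*} [Group G] (x g : G) : Prop := ∃ y y', IsConj x y ∧ IsConj x y' ∧ g = y * y'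

theorem InSq.conj {G : Type*} [Group G] {x g : G} (h : InSq x g) (c : G) : InSq x (c * g * c⁻¹) := by
  obtain ⟨y, y', hy, hy', rfl⟩ := h
  exact ⟨c * y * c⁻¹, c * y' * c⁻¹, hy.trans (isConj_iff.2 ⟨c, rfl⟩), hy'.trans (isConj_iff.2 ⟨c, rfl⟩),
    by group⟩

theorem InSq.of_isConj {G : Type*} [Group G] {x g g' : G} (h : InSq x g) (e : IsConj g g') : InSq x g' := by
  obtain ⟨c, rfl⟩ := isConj_iff.1 e
  exact h.conj c

theorem isConj_inv_inv {G : Type*} [Group G] {x y : G} (h : IsConj x y) : IsConj x⁻¹ y⁻¹ := by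
  obtain ⟨c, rfl⟩ := isConj_iff.1 h
  exact isConj_iff.2 ⟨c, by group⟩

theorem InSq.inv {G : Type*} [Group G] {x g : G} (h : InSq x g) (hx : IsConj x x⁻¹) : InSq x g⁻¹ := by
  obtain ⟨y, y', hy, hy', rfl⟩ := h
  exact ⟨y'⁻¹, y⁻¹, hx.trans (isConj_inv_inv hy'), hx.trans (isConj_inv_inv hy), mul_inv_rev y y'⟩

/-- The first certificate: the conjugate of the reflection commutes with it. -/
theorem comm_check_n : chkEqMod chevG2 tabG2 3
    (reeTopWord ++ ([(8, 1), (10, 1)] ++ reeTopWord ++ [(10, -1), (8, -1)]))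
    (([(8, 1), (10, 1)] ++ reeTopWord ++ [(10, -1), (8, -1)]) ++ reeTopWord) = true := by decide +kernel

/-- The second certificate. -/
theorem comm_check_tn : chkEqMod chevG2 tabG2 3
    ((reeInvWord ++ reeTopWord) ++ ([(8, 1), (10, 1)] ++ (reeInvWord ++ reeTopWord) ++ [(10, -1), (8, -1)]))
    (([(8, 1), (10, 1)] ++ (reeInvWord ++ reeTopWord) ++ [(10, -1), (8, -1)]) ++ (reeInvWord ++ reeTopWord))
      = true := by decide +kernel

variable {K : Type*} [Field K] [Fintype K] {m : ℕ} (hK : Fintype.card K = 3 ^ (2 * m + 1))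

include hK

/-- A nonzero element or its negative is a square. -/
theorem exists_sign_sq (s : Kˣ) : ∃ ε : Kˣ, (ε = 1 ∨ ε = -1) ∧ ∃ l : Kˣ, ε = l ^ 2 * s := by
  classical
  obtain ⟨k, ⟨j, hj⟩, hk⟩ := H48.Ree.exists_half m
  have h1 : (s ^ k) ^ 2 = 1 := by
    rw [← pow_mul, mul_comm, ← hk, ← hK, ← Fintype.card_units]
    exact pow_card_eq_one
  refine ⟨s ^ k, ?_, s ^ j, ?_⟩
  · rcases sq_eq_one_iff.1 (show ((s ^ k : Kˣ) : K) ^ 2 = 1 by rw [← Units.val_pow_eq_pow_val, h1, Units.val_one])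
      with e | e
    · exact Or.inl (Units.ext e)
    · exact Or.inr (Units.ext (by rw [e, Units.val_neg, Units.val_one]))
  · rw [← pow_mul, hj, pow_succ, mul_comm j 2]

/-- Every square is a power with exponent `3e + 1`. -/
theorem sq_mem_range (r : Kˣ) : ∃ l : Kˣ, l ^ (3 * 3 ^ m + 1) = r ^ 2 := by
  classical
  haveI := (H48.Ree.field_data hK).1
  obtain ⟨k, hkodd, hk⟩ := H48.Ree.exists_half m
  let f : {x : Kˣ // x ^ k = 1} → {x : Kˣ // x ^ k = 1} := fun x =>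
    ⟨x.1 ^ (3 * 3 ^ m + 1), by rw [← pow_mul, mul_comm, pow_mul, x.2, one_pow]⟩
  have hf : Function.Injective f := by
    intro x y h
    have hxy : (x.1 * y.1⁻¹) ^ k = 1 := by rw [mul_pow, inv_pow, x.2, y.2, inv_one, mul_one]
    refine Subtype.ext (mul_inv_eq_one.1 ((H48.Ree.param_fixed_free (H48.Ree.field_data hK).2
      (hkodd.of_dvd_nat (orderOf_dvd_of_pow_eq_one hxy))).1 ?_))
    rw [mul_pow, inv_pow, mul_inv_eq_one]
    exact congrArg Subtype.val h
  obtain ⟨⟨l, hlk⟩, hl⟩ := Finite.surjective_of_injective hf ⟨r ^ 2, by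
    rw [← pow_mul, ← hk, ← hK, ← Fintype.card_units]
    exact pow_card_eq_one⟩
  exact ⟨l, congrArg Subtype.val hl⟩

/-- `z_v k` for the involution `k = h n`. -/
theorem hp_n_sq (s : Kˣ) : (hp hK s * nR (m := m) hK) * (hp hK s * nR hK) = 1 := by
  calc hp hK s * nR hK * (hp hK s * nR hK) = hp hK s * (nR hK * hp hK s) * nR hK := by simp only [mul_assoc]
    _ = 1 := by
      rw [n_hp hK, ← mul_assoc, ← map_mul, mul_inv_cancel, map_one, one_mul]
      exact (cell hK).n_sq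

theorem zR_commute (v : K) (b w : K) : wR m 0 b w * zR m v = zR m v * wR m 0 b w := by
  rw [zR, wR_mul' hK, wR_mul' hK, add_comm b, add_comm w]

/-- The normal form of a regular semisimple element. -/
theorem exists_normal_form (hm : 1 ≤ m) {x : ↥(Gr K m)} (hx : IsReg x) :
    ∃ (v : K) (ε : Kˣ), v ≠ 0 ∧ (ε = 1 ∨ ε = -1) ∧ IsConj x (zR m v * hp hK ε * nR hK) := by
  obtain ⟨s, hs⟩ := exists_isConj_kR hK hm hx
  obtain ⟨ε, hε, l, hl⟩ := exists_sign_sq hK s
  refine ⟨(l : K) ^ (3 * 3 ^ m + 2), ε, pow_ne_zero _ l.ne_zero, hε, hs.symm.trans (isConj_iff.2 ⟨hp hK l, ?_⟩)⟩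
  have e : hp hK l * zR m 1 * (hp hK l)⁻¹ = zR m ((l : K) ^ (3 * 3 ^ m + 2)) := by
    rw [zR, hp_conj]; simp
  rw [← e, kR, hl, map_mul, pow_two, map_mul]
  calc hp hK l * (zR m 1 * hp hK s * nR hK) * (hp hK l)⁻¹
      = hp hK l * zR m 1 * hp hK s * (nR hK * hp hK l⁻¹) := by rw [map_inv]; simp only [mul_assoc]
    _ = hp hK l * zR m 1 * (hp hK l)⁻¹ * (hp hK l * hp hK s * hp hK l) * nR hK := by
        rw [n_hp hK, inv_inv]; group
    _ = hp hK l * zR m 1 * (hp hK l)⁻¹ * (hp hK l * hp hK l * hp hK s) * nR hK := by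
        rw [mul_assoc (hp hK l) (hp hK s) (hp hK l), ← map_mul (hp hK) s l, mul_comm s l, map_mul]
        simp only [mul_assoc]

/-- The regular semisimple elements are real. -/
theorem isConj_inv (hm : 1 ≤ m) {x : ↥(Gr K m)} (hx : IsReg x) : IsConj x x⁻¹ := by
  obtain ⟨v, ε, -, -, h⟩ := exists_normal_form hK hm hx
  refine h.trans (IsConj.trans ?_ (isConj_inv_inv h).symm)
  obtain ⟨k, hk⟩ : ∃ k, k = hp hK ε * nR (m := m) hK := ⟨_, rfl⟩
  have hk2 : k * k = 1 := hk ▸ hp_n_sq hK ε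
  have et : tR hK * k * (tR hK)⁻¹ = k := by
    rw [hk, ← hp_neg_one hK, ← map_inv]
    calc hp hK (-1) * (hp hK ε * nR hK) * hp hK (-1)⁻¹
        = hp hK (-1) * hp hK ε * (nR hK * hp hK (-1)⁻¹) := by simp only [mul_assoc]
      _ = hp hK ε * nR hK := by
          rw [n_hp hK, inv_inv, ← map_mul, ← mul_assoc, ← map_mul]
          congr 2
          rw [mul_comm (-1 : Kˣ) ε, mul_assoc, neg_one_mul, _root_.neg_neg, mul_one]
  have ez : tR hK * zR m v * (tR hK)⁻¹ = zR m (-v) := by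
    refine Subtype.ext ?_
    rw [Subgroup.coe_mul, Subgroup.coe_mul, Subgroup.coe_inv]
    show (tR hK : GL chevG2.Idx K) * H48.Ree.W (3 ^ m) 0 0 v * (tR hK : GL chevG2.Idx K)⁻¹ = _
    rw [H47.Ree.tR_conj_W hK, neg_zero]
    rfl
  have einv : (zR m v)⁻¹ = zR m (-v) := by rw [zR, wR_inv' hK, neg_zero]
  refine isConj_iff.2 ⟨tR hK * (zR m v)⁻¹, ?_⟩
  rw [mul_assoc (zR m v) (hp hK ε) (nR hK), ← hk, mul_inv_rev (zR m v) k,
    inv_eq_of_mul_eq_one_right hk2, einv]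
  calc tR hK * zR m (-v) * (zR m v * k) * (tR hK * zR m (-v))⁻¹
      = (tR hK * k * (tR hK)⁻¹) * (tR hK * zR m v * (tR hK)⁻¹) := by rw [← einv]; group
    _ = k * zR m (-v) := by rw [et, ez]

/-- Central unipotent elements. -/
theorem inSq_z (hm : 1 ≤ m) {x : ↥(Gr K m)} (hx : IsReg x) {w : K} (hw : w ≠ 0) : InSq x (zR m w) := by
  classical
  haveI := (H48.Ree.field_data hK).1
  obtain ⟨v, ε, hv, -, h⟩ := exists_normal_form hK hm hx
  obtain ⟨k, hk⟩ : ∃ k, k = hp hK ε * nR (m := m) hK := ⟨_, rfl⟩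
  have hk2 : k * k = 1 := hk ▸ hp_n_sq hK ε
  rw [mul_assoc, ← hk] at h
  have h2 : v + v ≠ 0 := fun e => hv (by linear_combination v * H48.Ree.three0 (F := K) - e)
  have hbase : InSq x (zR m (v + v)) := by
    refine ⟨zR m v * k, k * zR m v, h, h.trans (isConj_iff.2 ⟨(zR m v)⁻¹, by group⟩), ?_⟩
    rw [mul_assoc (zR m v) k, ← mul_assoc k k, hk2, one_mul, zR, wR_mul' hK, add_zero]
  have hsurj : Function.Surjective fun l : Kˣ => l ^ (3 * 3 ^ m + 2) :=
    Finite.surjective_of_injective fun a b e => mul_inv_eq_one.1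
      (H71.ReeMinDegree.exponent_injective (H48.Ree.field_data hK).2 hK (by
        rw [mul_pow, inv_pow, mul_inv_eq_one]; exact e))
  obtain ⟨l, hl⟩ := hsurj (Units.mk0 (w / (v + v)) (div_ne_zero hw h2))
  refine hbase.of_isConj (isConj_iff.2 ⟨hp hK l, ?_⟩)
  have hl' : (l : K) ^ (3 * 3 ^ m + 2) = w / (v + v) := by
    rw [← Units.val_pow_eq_pow_val]
    exact congrArg Units.val hl
  rw [zR, hp_conj, hl', div_mul_cancel₀ w h2, mul_zero, mul_zero]

/-- Involutions. -/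
theorem inSq_involution (hm : 1 ≤ m) {x : ↥(Gr K m)} (hx : IsReg x) {g : ↥(Gr K m)} (hg : orderOf g = 2) :
    InSq x g := by
  haveI := (H48.Ree.field_data hK).1
  obtain ⟨v, ε, hv, hε, h⟩ := exists_normal_form hK hm hx
  obtain ⟨k, hk⟩ : ∃ k, k = hp hK ε * nR (m := m) hK := ⟨_, rfl⟩
  have hk2 : k * k = 1 := hk ▸ hp_n_sq hK ε
  rw [mul_assoc, ← hk] at h
  obtain ⟨σ, hσ⟩ : ∃ σ, σ = wR m (0 : K) 1 0 := ⟨_, rfl⟩
  have e0 : 3 ^ m ≠ 0 := by positivity
  have hσw : (σ : GL chevG2.Idx K) = wordEl goodG2 [(8, 1), (10, 1)] := by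
    rw [hσ]
    show H48.Ree.W (3 ^ m) (0 : K) 1 0 = _
    simp [H48.Ree.W, H48.Ree.P, wordEl, zero_pow e0, goodG2.xg_zero]
  have hσw' : (σ : GL chevG2.Idx K)⁻¹ = wordEl goodG2 [(10, -1), (8, -1)] := by
    rw [hσw]
    simp [wordEl, goodG2.xg_inv]
  obtain ⟨w, hw, hchk⟩ : ∃ w, (k : GL chevG2.Idx K) = wordEl goodG2 w ∧
      chkEqMod chevG2 tabG2 3 (w ++ ([(8, 1), (10, 1)] ++ w ++ [(10, -1), (8, -1)]))
        (([(8, 1), (10, 1)] ++ w ++ [(10, -1), (8, -1)]) ++ w) = true := by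
    rcases hε with rfl | rfl
    · refine ⟨reeTopWord, ?_, comm_check_n⟩
      rw [hk, map_one, one_mul]
      exact H47.Ree.reeN_word
    · refine ⟨reeInvWord ++ reeTopWord, ?_, comm_check_tn⟩
      rw [hk, hp_neg_one, H65.Twist.wordEl_append, Subgroup.coe_mul, H47.Ree.tR_coe, H47.Ree.torus_neg_word,
        show ((nR hK : ↥(Gr K m)) : GL chevG2.Idx K) = wordEl goodG2 reeTopWord from H47.Ree.reeN_word]
  obtain ⟨k', hk'⟩ : ∃ k', k' = σ * k * σ⁻¹ := ⟨_, rfl⟩
  have hcomm : k * k' = k' * k := by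
    refine Subtype.ext ?_
    rw [hk']
    simp only [Subgroup.coe_mul, Subgroup.coe_inv]
    rw [hσw', hσw, hw]
    simp only [← H65.Twist.wordEl_append]
    exact H65.Twist.wordEl_eq goodG2 (p := 3) hchk
  have hk'2 : k' * k' = 1 := by
    rw [hk', show σ * k * σ⁻¹ * (σ * k * σ⁻¹) = σ * (k * k) * σ⁻¹ by group, hk2, mul_one, mul_inv_cancel]
  have hne : k ≠ k' := by
    intro e
    have ec : σ * k = k * σ := by
      rw [hk', eq_mul_inv_iff_mul_eq] at e
      exact e.symm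
    have hεi : ε⁻¹ = ε := by rcases hε with rfl | rfl <;> simp
    have en : k = nR hK * hp hK ε := by rw [n_hp hK, hεi]; exact hk
    have e2 : σ * (cell hK).n * hp hK ε * 1 = 1 * (cell hK).n * hp hK ε * σ := by
      show σ * nR hK * hp hK ε * 1 = 1 * nR hK * hp hK ε * σ
      rw [mul_one, one_mul, mul_assoc, ← en, ec]
    have hσU : σ ∈ (cell hK).U := hσ ▸ wR_mem hK (0 : K) 1 0
    obtain ⟨e3, -, -⟩ := (cell hK).uniq σ hσU _ (hp_mem hK ε) 1 (one_mem _) 1 (one_mem _) _ (hp_mem hK ε)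
      σ hσU e2
    exact one_ne_zero (wR_injective hK ((hσ ▸ e3).trans wR_zero.symm)).2.1
  have ho : orderOf (k * k') = 2 := by
    refine orderOf_eq_prime ?_ fun e => hne ?_
    · rw [pow_two, show k * k' * (k * k') = k * (k' * k) * k' by group, ← hcomm,
        show k * (k * k') * k' = k * k * (k' * k') by group, hk2, hk'2, mul_one]
    · rw [mul_eq_one_iff_eq_inv] at e
      rw [e, inv_eq_of_mul_eq_one_right hk'2]
  obtain ⟨c, hc⟩ := H47.Ree.involution_conj hK ho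
  obtain ⟨d, hd⟩ := H47.Ree.involution_conj hK hg
  refine InSq.of_isConj (g := k * k') ⟨(zR m v * k)⁻¹, σ * (zR m v * k) * σ⁻¹,
    (isConj_inv hK hm hx).trans (isConj_inv_inv h), h.trans (isConj_iff.2 ⟨σ, rfl⟩), ?_⟩
    ((isConj_iff.2 ⟨c, hc⟩ : IsConj (k * k') (tR hK)).trans (isConj_iff.2 ⟨d, hd⟩ : IsConj g (tR hK)).symm)
  rw [mul_inv_rev, inv_eq_of_mul_eq_one_right hk2, ← mul_assoc σ, hσ, zR_commute hK v 1 0, hk', hσ]
  group

open Classical in
/-- Some element `W 0 b w` with `b ≠ 0` is a product: a class is too large for one `u` in each fibre. -/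
theorem exists_inSq_T (hm : 1 ≤ m) {x : ↥(Gr K m)} (hx : IsReg x)
    (hC : Nat.card ↥(Subgroup.centralizer ({x} : Set ↥(Gr K m))) ≤ qB m) :
    ∃ b w : K, b ≠ 0 ∧ InSq x (wR m 0 b w) := by
  classical
  haveI : Fintype ↥(Gr K m) := Fintype.ofFinite _
  set P : Finset ((Kˣ × K) × (K × K)) := Finset.univ.filter fun p =>
    IsConj x (wR m p.1.2 p.2.1 p.2.2 * hp hK p.1.1 * nR hK) with hP
  by_cases hex : ∃ p ∈ P, ∃ p' ∈ P, p.1 = p'.1 ∧ p.2.1 ≠ p'.2.1
  · obtain ⟨⟨⟨s, t⟩, u, v⟩, hp1, ⟨⟨s', t'⟩, u', v'⟩, hp2, e, hne⟩ := hex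
    obtain ⟨rfl, rfl⟩ : s = s' ∧ t = t' := Prod.ext_iff.1 e
    refine ⟨u - u', v - v' + t * (u - u'), sub_ne_zero.2 hne, ?_⟩
    refine ⟨_, _, (Finset.mem_filter.1 hp1).2,
      (isConj_inv hK hm hx).trans (isConj_inv_inv (Finset.mem_filter.1 hp2).2), ?_⟩
    have ew : wR m t u v = wR m 0 (u - u') (v - v' + t * (u - u')) * wR m t u' v' := by
      rw [wR_mul hK]
      congr 1 <;> simp only [zero_mul, zero_add, sub_zero, mul_zero, pow_two] <;> ring
    show wR m 0 (u - u') (v - v' + t * (u - u')) =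
      wR m t u v * hp hK s * nR hK * (wR m t u' v' * hp hK s * nR hK)⁻¹
    rw [ew]
    group
  · exfalso
    push Not at hex
    set q := 3 ^ (2 * m + 1) with hq
    set e := 3 ^ m with he
    have hqe : q = 3 * e * e := by rw [hq, he]; ring
    have he3 : 3 ≤ e := Nat.le_self_pow (by omega) 3
    -- at most `3e` elements for each pair `(s, t)`
    have hfib : ∀ a ∈ P.image Prod.fst, (P.filter fun p => p.1 = a).card ≤ 3 * e := by
      intro a ha
      obtain ⟨⟨⟨s, t⟩, u, v⟩, hp1, rfl⟩ := Finset.mem_image.1 ha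
      refine le_trans ?_ (card_fibre hK hm s t u (trR x))
      refine Finset.card_le_card_of_injOn (fun p => p.2.2) (fun p hp => ?_) fun p hp p' hp' e' => ?_
      · obtain ⟨hpP, hpa⟩ := Finset.mem_filter.1 hp
        obtain ⟨⟨s', t'⟩, u', v'⟩ := p
        obtain ⟨rfl, rfl⟩ : s' = s ∧ t' = t := Prod.ext_iff.1 hpa
        obtain rfl : u' = u := hex _ hpP _ hp1 rfl
        exact Finset.mem_filter.2 ⟨Finset.mem_univ _, (trR_isConj (Finset.mem_filter.1 hpP).2).symm⟩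
      · obtain ⟨hpP, hpa⟩ := Finset.mem_filter.1 hp
        obtain ⟨hpP', hpa'⟩ := Finset.mem_filter.1 hp'
        exact Prod.ext (hpa.trans hpa'.symm) (Prod.ext (hex _ hpP _ hpP' (hpa.trans hpa'.symm)) e')
    have hPcard : P.card ≤ 3 * e * ((q - 1) * q) := by
      refine (Finset.card_le_mul_card_image P (3 * e) hfib).trans (Nat.mul_le_mul_left _ ?_)
      refine (Finset.card_le_univ _).trans ?_
      rw [Fintype.card_prod, Fintype.card_units, hK]
    -- the class is covered by the Borel subgroup and the fibres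
    let f : (K × K × K) × (↥P ⊕ Kˣ) → ↥(Gr K m) := fun p => Sum.elim
      (fun a => (wR m p.1.1 p.1.2.1 p.1.2.2)⁻¹ * (wR m a.1.1.2 a.1.2.1 a.1.2.2 * hp hK a.1.1.1 * nR hK) *
        wR m p.1.1 p.1.2.1 p.1.2.2)
      (fun s => wR m p.1.1 p.1.2.1 p.1.2.2 * hp hK s) p.2
    have hcov : (Finset.univ.filter fun g : ↥(Gr K m) => ConjClasses.mk g = ConjClasses.mk x) ⊆
        Finset.univ.image f := by
      intro g hg
      rw [Finset.mem_filter, ConjClasses.mk_eq_mk_iff_isConj] at hg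
      rcases (cell hK).dec g with ⟨u, hu, h, hh, rfl⟩ | ⟨u, hu, h, hh, v, hv, rfl⟩
      · obtain ⟨t, b, c, rfl⟩ := U_eq hK hu
        obtain ⟨s, rfl⟩ := (mem_H_iff hK h).1 hh
        exact Finset.mem_image.2 ⟨((t, b, c), Sum.inr s), Finset.mem_univ _, rfl⟩
      · obtain ⟨t, b, c, e1⟩ := U_eq hK (mul_mem hv hu)
        obtain ⟨t', b', c', rfl⟩ := U_eq hK hv
        obtain ⟨s, rfl⟩ := (mem_H_iff hK h).1 hh
        have e2 : u * (cell hK).n * hp hK s * wR m t' b' c' =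
            (wR m t' b' c')⁻¹ * (wR m t b c * hp hK s⁻¹ * nR hK) * wR m t' b' c' := by
          rw [← e1]
          show u * nR hK * hp hK s * wR m t' b' c' = _
          rw [mul_assoc (wR m t' b' c' * u), ← n_hp hK]
          group
        have hmem : ((s⁻¹, t), (b, c)) ∈ P := Finset.mem_filter.2 ⟨Finset.mem_univ _,
          hg.2.symm.trans (isConj_iff.2 ⟨wR m t' b' c', by rw [e2]; group⟩)⟩
        exact Finset.mem_image.2 ⟨((t', b', c'), Sum.inl ⟨_, hmem⟩), Finset.mem_univ _, e2.symm⟩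
    have h1 := (Finset.card_le_card hcov).trans Finset.card_image_le
    rw [Finset.card_univ, Fintype.card_prod, Fintype.card_prod, Fintype.card_prod, Fintype.card_sum,
      Fintype.card_coe, Fintype.card_units, hK] at h1
    have h2 := H26.card_class_mul_card_centralizer x
    rw [H47.Ree.card_R (m := m) hK] at h2
    have h3 : q ^ 3 * ((q - 1) * (q ^ 3 + 1)) ≤ q ^ 3 * ((P.card + (q - 1)) * qB m) := by
      calc q ^ 3 * ((q - 1) * (q ^ 3 + 1)) = q ^ 3 * (q - 1) * (q ^ 3 + 1) := by ring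
        _ ≤ q * (q * q) * (P.card + (q - 1)) * qB m := by rw [← h2]; exact Nat.mul_le_mul h1 hC
        _ = _ := by ring
    have h4 := Nat.le_of_mul_le_mul_left h3 (by positivity)
    have h5 : (q - 1) * (q ^ 3 + 1) ≤ (q - 1) * ((3 * e * q + 1) * (q + 3 * e + 1)) := by
      refine h4.trans (le_trans (Nat.mul_le_mul_right _ (Nat.add_le_add_right hPcard _)) (le_of_eq ?_))
      rw [show qB m = q + 3 * e + 1 by rw [qB, hq, he]; ring]
      ring
    have hq1 : 0 < q - 1 := by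
      have : 9 ≤ 3 * e := by omega
      have : 3 ≤ q := by rw [hqe]; nlinarith
      omega
    have h6 := Nat.le_of_mul_le_mul_left h5 hq1
    rw [hqe] at h6
    nlinarith [Nat.mul_le_mul he3 he3, pow_le_pow_left₀ (Nat.zero_le _) he3 3, pow_le_pow_left₀ (Nat.zero_le _) he3 4,
      pow_le_pow_left₀ (Nat.zero_le _) he3 5, pow_le_pow_left₀ (Nat.zero_le _) he3 6]

/-- Elements of order three. -/
theorem inSq_three (hm : 1 ≤ m) {x : ↥(Gr K m)} (hx : IsReg x)
    (hC : Nat.card ↥(Subgroup.centralizer ({x} : Set ↥(Gr K m))) ≤ qB m) {g : ↥(Gr K m)} (hg : orderOf g = 3) :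
    InSq x g := by
  haveI := (H48.Ree.field_data hK).1
  obtain ⟨c, hc⟩ := H47.Ree.exists_conj_mem_pow (n := 1) Nat.prime_three (H47.Ree.index_U hK)
    (x := g) (by rw [hg, pow_one])
  obtain ⟨t, b, v, e⟩ := U_eq hK hc
  obtain rfl : t = 0 := (H47.Ree.U_cube hK (congrArg Subtype.val e)).1 (by
    rw [conj_pow, ← hg, pow_orderOf_eq_one, mul_one, mul_inv_cancel])
  refine InSq.of_isConj ?_ (isConj_iff.2 ⟨c, rfl⟩ : IsConj g (c * g * c⁻¹)).symm
  rw [e]
  by_cases hb : b = 0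
  · subst hb
    have hv : v ≠ 0 := by
      intro hv
      rw [hv, wR_zero, conj_eq_one_iff] at e
      rw [e, orderOf_one] at hg
      omega
    exact inSq_z hK hm hx hv
  obtain ⟨b₀, w₀, hb₀, h0⟩ := exists_inSq_T hK hm hx hC
  -- shift the last coordinate
  have shift : ∀ b w w' : K, b ≠ 0 → InSq x (wR m 0 b w) → InSq x (wR m 0 b w') := by
    intro b w w' hb h
    refine h.of_isConj (isConj_iff.2 ⟨wR m ((w' - w) / b) 0 0, ?_⟩)
    rw [mul_inv_eq_iff_eq_mul, wR_mul hK, wR_mul hK]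
    have e0 : 3 * 3 ^ m ≠ 0 := by positivity
    simp only [zero_pow e0, zero_pow (Nat.succ_ne_zero (3 * 3 ^ m))]
    have hd : (w' - w) / b * b = w' - w := div_mul_cancel₀ _ hb
    congr 1
    · ring
    · ring
    · linear_combination hd
  -- scale by a square
  obtain ⟨ε, hε, l, hl⟩ := exists_sign_sq hK (Units.mk0 (b / b₀) (div_ne_zero hb hb₀))
  obtain ⟨r, hr⟩ := sq_mem_range hK l⁻¹
  have hbb : b = (ε : K) * ((r : K) ^ (3 * 3 ^ m + 1) * b₀) := by
    rw [← Units.val_pow_eq_pow_val, hr, ← mul_assoc, ← Units.val_mul, hl,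
      show l ^ 2 * Units.mk0 (b / b₀) (div_ne_zero hb hb₀) * l⁻¹ ^ 2 = Units.mk0 (b / b₀) (div_ne_zero hb hb₀) by
        rw [inv_pow, mul_comm (l ^ 2), mul_inv_cancel_right], Units.val_mk0, div_mul_cancel₀ b hb₀]
  have hscale := h0.conj (hp hK r)
  rw [hp_conj, mul_zero] at hscale
  have hne : (r : K) ^ (3 * 3 ^ m + 1) * b₀ ≠ 0 := mul_ne_zero (pow_ne_zero _ r.ne_zero) hb₀
  rcases hε with rfl | rfl
  · rw [Units.val_one, one_mul] at hbb
    rw [hbb]
    exact shift _ _ _ hne hscale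
  · rw [Units.val_neg, Units.val_one, neg_one_mul] at hbb
    have h' := (shift _ _ (-v) hne hscale).inv (isConj_inv hK hm hx)
    rw [wR_inv' hK, _root_.neg_neg, ← hbb] at h'
    exact h'

end Cfsg.Agent.H19.ReeSq
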