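import Cfsg.Agent.H19.ReeSq.Coord
import Mathlib.LinearAlgebra.Matrix.Charpoly.FiniteField
import Mathlib.Algebra.Polynomial.Roots

/-!
Consequences of the trace formula: the traces separate the elements `z₁ h n`, unipotent elements and elements of
order two and six have trace two or one, and a trace is attained few times along a coset of the centre.
-/

set_option autoImplicit false

open Cfsg.Lie Cfsg.Agent.H46
open scoped Matrix

namespace Cfsg.Agent.H19.ReeSq

open Cfsg.Agent.H48.Ree (W Gr Hr Ur)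
open Cfsg.Agent.H47.Ree (cell nR tR)

variable {K : Type*} [Field K] [Fintype K] {m : ℕ} (hK : Fintype.card K = 3 ^ (2 * m + 1))

include hK in
theorem add_pow_injective : Function.Injective fun x : K => x + x ^ 3 ^ m := by
  haveI := (H48.Ree.field_data hK).1
  haveI : Fact (Nat.Prime 3) := ⟨Nat.prime_three⟩
  have hq := (H48.Ree.field_data hK).2
  have hodd : Odd (3 ^ m) := Odd.pow (by decide)
  intro x y h
  by_contra hne
  have hd : x - y ≠ 0 := sub_ne_zero.2 hne
  have h1 : (x - y) ^ 3 ^ m = -(x - y) := by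
    rw [sub_pow_char_pow]
    linear_combination h
  have h2 : ((x - y) ^ 3 ^ m) ^ 3 ^ m = x - y := by rw [h1, hodd.neg_pow, h1, neg_neg]
  have h3 : (x - y) ^ 3 = x - y := by
    calc (x - y) ^ 3 = (((x - y) ^ 3 ^ m) ^ 3 ^ m) ^ 3 := by rw [h2]
      _ = (x - y) ^ 3 ^ (2 * m + 1) := by rw [← pow_mul, ← pow_mul]; congr 1; ring
      _ = x - y := hq _
  have h4 : (x - y) ^ 2 = 1 := mul_right_cancel₀ hd (by rw [one_mul, ← pow_succ]; exact h3)
  obtain ⟨j, hj⟩ := hodd
  rw [hj, pow_succ, pow_mul, h4, one_pow, one_mul] at h1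
  exact hd (by linear_combination (x - y) * (H48.Ree.three0 (F := K)) - h1)

/-- The representatives `z₁ h n`. -/
noncomputable def kR (s : Kˣ) : ↥(Gr K m) := zR m 1 * hp hK s * nR hK

theorem trR_z (s : Kˣ) (v : K) : trR (zR m v * hp hK s * nR hK) =
    1 + v ^ 2 * ((s : K) ^ (3 * 3 ^ m + 2))⁻¹ + (v ^ 2 * ((s : K) ^ (3 * 3 ^ m + 2))⁻¹) ^ 3 ^ m := by
  have hq := (H48.Ree.field_data hK).2
  have e0 : 3 ^ m ≠ 0 := by positivity
  have hs : ((s : K) ^ (3 * 3 ^ m + 2)) ^ 3 ^ m = (s : K) ^ (2 * 3 ^ m + 1) := by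
    rw [← pow_mul, show (3 * 3 ^ m + 2) * 3 ^ m = 3 ^ (2 * m + 1) + 2 * 3 ^ m by ring, pow_add, hq,
      pow_succ, mul_comm]
  rw [trR_cell, mul_pow, inv_pow, hs]
  simp [zero_pow e0]
  ring

theorem trR_kR (s : Kˣ) : trR (kR (m := m) hK s) =
    1 + ((s : K) ^ (3 * 3 ^ m + 2))⁻¹ + (((s : K) ^ (3 * 3 ^ m + 2))⁻¹) ^ 3 ^ m := by
  rw [kR, trR_z]
  simp

theorem trR_kR_injective : Function.Injective fun s : Kˣ => trR (kR (m := m) hK s) := by
  haveI := (H48.Ree.field_data hK).1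
  intro s s' h
  simp only [trR_kR, add_assoc, add_right_inj] at h
  have h1 := inv_injective (add_pow_injective hK h)
  refine mul_inv_eq_one.1 (H71.ReeMinDegree.exponent_injective (H48.Ree.field_data hK).2 hK ?_)
  rw [mul_pow, inv_pow, mul_inv_eq_one]
  exact Units.ext (by simpa using h1)

theorem trR_kR_ne_one (s : Kˣ) : trR (kR (m := m) hK s) ≠ 1 := by
  rw [trR_kR]
  intro h
  have h0 : ((s : K) ^ (3 * 3 ^ m + 2))⁻¹ + (((s : K) ^ (3 * 3 ^ m + 2))⁻¹) ^ 3 ^ m =
      0 + (0 : K) ^ 3 ^ m := by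
    rw [zero_pow (by positivity), add_zero]
    linear_combination h
  exact inv_ne_zero (pow_ne_zero _ s.ne_zero) (add_pow_injective hK h0)

theorem trR_kR_eq_two {s : Kˣ} (h : trR (kR (m := m) hK s) = 2) : s = -1 := by
  haveI := (H48.Ree.field_data hK).1
  refine trR_kR_injective hK (h.trans ?_ : trR (kR (m := m) hK s) = trR (kR (m := m) hK (-1)))
  rw [trR_kR]
  have hodd : Odd (3 * 3 ^ m + 2) := (Odd.mul (by decide) (Odd.pow (by decide))).add_even (by decide)
  have hodd' : Odd (3 ^ m) := Odd.pow (by decide)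
  rw [Units.val_neg, Units.val_one, hodd.neg_one_pow, inv_neg, inv_one, hodd'.neg_one_pow]
  linear_combination H48.Ree.three0 (F := K)

omit [Fintype K] in
theorem trR_one [CharP K 3] : trR (1 : ↥(Gr K m)) = 2 := by
  unfold trR
  rw [Subgroup.coe_one, Units.val_one, Matrix.trace_one, show Fintype.card chevG2.Idx = 14 from rfl]
  push_cast
  linear_combination 4 * H48.Ree.three0 (F := K)

include hK in
/-- The trace is unchanged by the `q`-th power. -/
theorem trR_pow (g : ↥(Gr K m)) : trR (g ^ 3 ^ (2 * m + 1)) = trR g := by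
  unfold trR
  rw [Subgroup.coe_pow, Units.val_pow_eq_pow_val, ← hK, FiniteField.trace_pow_card, FiniteField.pow_card]

theorem trR_tR : trR (tR (m := m) hK) = 1 := by
  haveI := (H48.Ree.field_data hK).1
  have h0 : zR m (0 : K) = 1 := wR_zero
  have hn : trR (nR (m := m) hK) = 1 := by
    have h := trR_z (m := m) hK 1 0
    rw [h0, map_one, one_mul, one_mul] at h
    simpa [zero_pow (show 3 ^ m ≠ 0 by positivity)] using h
  have ho : orderOf (nR (m := m) hK) = 2 := by
    refine orderOf_eq_prime (by rw [pow_two]; exact (cell hK).n_sq) fun e => ?_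
    exact (cell (m := m) hK).ne_cell 1 (one_mem _) 1 (one_mem _) 1 (one_mem _) 1 (one_mem _) 1 (one_mem _)
      (by
        rw [one_mul, mul_one, mul_one, one_mul]
        exact e)
  obtain ⟨g, hg⟩ := H47.Ree.involution_conj hK ho
  rw [← hg, trR_conj, hn]

include hK in
/-- Elements of order `1`, `2`, `3`, `6` or `9` have trace one or two. -/
theorem trR_small (hm : 1 ≤ m) {g : ↥(Gr K m)}
    (h : orderOf g = 1 ∨ orderOf g = 2 ∨ orderOf g = 3 ∨ orderOf g = 6 ∨ orderOf g = 9) :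
    trR g = 1 ∨ trR g = 2 := by
  haveI := (H48.Ree.field_data hK).1
  have h9 : 9 ∣ 3 ^ (2 * m + 1) := Dvd.intro (3 ^ (2 * m - 1)) (by
    rw [show (9 : ℕ) = 3 ^ 2 by norm_num, ← pow_add]; congr 1; omega)
  have hu : orderOf g ∣ 9 → trR g = 2 := fun hd => by
    rw [← trR_pow hK, orderOf_dvd_iff_pow_eq_one.1 (hd.trans h9), trR_one]
  have hinv : ∀ y : ↥(Gr K m), orderOf y = 2 → trR y = 1 := fun y hy => by
    obtain ⟨c, hc⟩ := H47.Ree.involution_conj hK hy
    rw [← trR_conj c y, hc, trR_tR]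
  rcases h with h | h | h | h | h
  · exact Or.inr (hu (h ▸ one_dvd _))
  · exact Or.inl (hinv g h)
  · exact Or.inr (hu (h ▸ by norm_num))
  · refine Or.inl ?_
    rw [← trR_pow hK]
    refine hinv _ ?_
    have hodd : Odd (3 ^ (2 * m + 1)) := Odd.pow (by decide)
    obtain ⟨j, hj⟩ := h9
    have hmod : 3 ^ (2 * m + 1) % 6 = 3 := by
      obtain ⟨i, hi⟩ := hodd
      omega
    rw [← pow_mod_orderOf, h, hmod, orderOf_pow_of_dvd (by norm_num) (by rw [h]; norm_num), h]
  · exact Or.inr (hu (h ▸ dvd_rfl))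

open Polynomial in
/-- A trace is attained at most `3e` times on a coset `W t u · ∗ h n`. -/
theorem card_fibre (hm : 1 ≤ m) (s : Kˣ) (t u c : K) [DecidableEq K] :
    (Finset.univ.filter fun v : K => trR (wR m t u v * hp hK s * nR hK) = c).card ≤ 3 * 3 ^ m := by
  haveI := (H48.Ree.field_data hK).1
  have h3 := H48.Ree.three0 (F := K)
  have he : 3 ≤ 3 ^ m := Nat.le_self_pow (by omega) 3
  set e := 3 ^ m with hedef
  have e0 : e ≠ 0 := by omega
  set μ9 := ((s : K) ^ (2 * e + 1))⁻¹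
  set μ11 := ((s : K) ^ (3 * e + 2))⁻¹ with hμ11
  set c0 := t ^ (e + 1) + u ^ e
  set T := t ^ (2 * e + 1)
  set a0 := trR (wR m t u 0 * hp hK s * nR hK)
  set a1 := -(t ^ e) * μ9 - (t ^ e) ^ 3 * ((s : K) ^ (3 * e + 1))⁻¹ + t * u * μ11
  set a3 := -t * ((s : K) ^ (e + 1))⁻¹ + 2 * T * μ9 + t ^ e * c0 * μ9
  set p : K[X] := C (a0 - c) + C a1 * X + C μ11 * X ^ 2 + C a3 * X ^ e + C μ9 * X ^ (2 * e) +
    C (-t * μ11) * X ^ (3 * e)
  have hp2 : p.coeff 2 = μ11 := by
    simp only [p, coeff_add, coeff_C, coeff_C_mul_X, coeff_C_mul_X_pow]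
    simp [show (2 : ℕ) ≠ e by omega, show (2 : ℕ) ≠ 2 * e by omega, show (2 : ℕ) ≠ 3 * e by omega]
  have hp0 : p ≠ 0 := fun h => inv_ne_zero (pow_ne_zero (3 * e + 2) s.ne_zero) (by
    rw [← hμ11, ← hp2, h, coeff_zero])
  have hdeg : p.natDegree ≤ 3 * e := by
    simp only [p]
    refine natDegree_add_le_of_degree_le (natDegree_add_le_of_degree_le (natDegree_add_le_of_degree_le
      (natDegree_add_le_of_degree_le (natDegree_add_le_of_degree_le ?_ ?_) ?_) ?_) ?_) ?_
    · simp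
    · exact (natDegree_C_mul_le _ _).trans (natDegree_X_le.trans (by omega))
    · exact (natDegree_C_mul_X_pow_le _ _).trans (by omega)
    · exact (natDegree_C_mul_X_pow_le _ _).trans (by omega)
    · exact (natDegree_C_mul_X_pow_le _ _).trans (by omega)
    · exact natDegree_C_mul_X_pow_le _ _
  have heval : ∀ v : K, p.eval v = trR (wR m t u v * hp hK s * nR hK) - c := by
    intro v
    simp only [p, eval_add, eval_mul, eval_C, eval_X, eval_pow, a0, a1, a3, trR_cell]
    simp only [← hedef, zero_pow e0, show (0 : K) ^ 2 = 0 from zero_pow two_ne_zero]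
    simp only [c0, T, μ9, hμ11]
    rw [show v ^ (2 * e) = (v ^ e) ^ 2 by rw [mul_comm, pow_mul],
      show v ^ (3 * e) = (v ^ e) ^ 3 by rw [mul_comm, pow_mul]]
    linear_combination (t * ((t ^ (2 * e + 1)) ^ 2 * v ^ e + t ^ (2 * e + 1) * (v ^ e) ^ 2) *
      ((s : K) ^ (3 * e + 2))⁻¹) * h3
  refine le_trans ?_ hdeg
  refine card_le_degree_of_subset_roots fun v hv => ?_
  rw [mem_roots hp0, IsRoot.def, heval, sub_eq_zero]
  exact (Finset.mem_filter.1 hv).2

end Cfsg.Agent.H19.ReeSq
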